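/-
The abstract form of the argument for the vanishing of the `p'`-core of the centraliser of an automorphism `X` of
prime order of a group `K`: all that matters is a subgroup `L₀` of the fixed points of `X`, "quasisimple of order
divisible by `p`", with trivial centraliser in `K`, whose pointwise stabiliser in `Aut K` has no non-trivial `p'`-elements.
-/
import Mathlib
import Cfsg.Prelude.Def_Solvable

set_option autoImplicit false

namespace Cfsg.Agent.Lib.LocalBal.Core

open Cfsg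
open scoped commutatorElement

variable {K : Type*} [Group K]

theorem conj_apply_eq (α : MulAut K) (k : K) : MulAut.conj (α k) = α * MulAut.conj k * α⁻¹ := by
  ext y
  show α k * y * (α k)⁻¹ = α (k * (α⁻¹ y) * k⁻¹)
  rw [map_mul, map_mul, map_inv]
  congr 2
  exact (MulEquiv.apply_symm_apply α y).symm

/-- The fixed points of an automorphism. -/
abbrev Fixed (x : MulAut K) : Subgroup K := MonoidHom.eqLocus x.toMonoidHom (MonoidHom.id K)

theorem mem_Fixed {x : MulAut K} {k : K} : k ∈ Fixed x ↔ x k = k := Iff.rfl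

/-- Inner automorphisms by fixed points lie in the centraliser. -/
theorem conj_mem_cent {x : MulAut K} {k : K} (hk : k ∈ Fixed x) : MulAut.conj k ∈ Subgroup.centralizer {x} := by
  rw [Subgroup.mem_centralizer_iff]
  rintro y rfl
  have h1 : y k = k := hk
  have h3 := conj_apply_eq y k
  rw [h1] at h3
  calc y * MulAut.conj k = (y * MulAut.conj k * y⁻¹) * y := by group
    _ = MulAut.conj k * y := by rw [← h3]

/-- The core lemma. -/
theorem core_abstract [Finite K] {p : ℕ} [Fact p.Prime] (hcj : Function.Injective (MulAut.conj : K →* MulAut K))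
    (X : MulAut K) (L₀ : Subgroup K) (hLC : ∀ l ∈ L₀, X l = l)
    (hnormL : ∀ c, X c = c → ∀ l ∈ L₀, c * l * c⁻¹ ∈ L₀)
    (hdich : ∀ M : Subgroup K, M ≤ L₀ → (∀ l ∈ L₀, ∀ y ∈ M, l * y * l⁻¹ ∈ M) → ¬ p ∣ Nat.card M → M = ⊥)
    (hcent : ∀ k : K, (∀ l ∈ L₀, k * l = l * k) → k = 1)
    (hfield : ∀ α : MulAut K, (∀ l ∈ L₀, α l = l) → (orderOf α).Coprime p → α = 1)
    (N : Subgroup (MulAut K)) (hcomm : ∀ α ∈ N, α * X = X * α)
    (hnorm : ∀ k, X k = k → ∀ α ∈ N, MulAut.conj k * α * (MulAut.conj k)⁻¹ ∈ N)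
    (hcop : (Nat.card N).Coprime p) : N = ⊥ := by
  have hp : p.Prime := Fact.out
  let C₀ := Fixed X
  let M₁ : Subgroup K := C₀ ⊓ N.comap (MulAut.conj)
  let M₀ : Subgroup K := M₁ ⊓ L₀
  have hLC' : L₀ ≤ C₀ := fun l hl => hLC l hl
  have hM₀ : M₀ = ⊥ := by
    apply hdich M₀ inf_le_right
    · rintro l hl y ⟨⟨hy1, hy2⟩, hy3⟩
      refine ⟨⟨?_, ?_⟩, ?_⟩
      · exact C₀.mul_mem (C₀.mul_mem (hLC' hl) hy1) (C₀.inv_mem (hLC' hl))
      · show MulAut.conj (l * y * l⁻¹) ∈ N
        rw [map_mul, map_mul, map_inv]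
        exact hnorm l (hLC l hl) _ hy2
      · exact L₀.mul_mem (L₀.mul_mem hl hy3) (L₀.inv_mem hl)
    · intro hdvd
      obtain ⟨y, hy⟩ := exists_prime_orderOf_dvd_card' p hdvd
      have h1 : orderOf (MulAut.conj y.1) = p := by
        rw [orderOf_injective _ hcj, Subgroup.orderOf_coe, hy]
      have h3 := Subgroup.orderOf_dvd_natCard N y.2.1.2
      rw [h1] at h3
      have h4 := Nat.dvd_gcd h3 (dvd_refl p)
      rw [hcop] at h4
      exact hp.one_lt.ne' (Nat.dvd_one.1 h4)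
  have hb : ∀ k ∈ M₁, ∀ l ∈ L₀, k * l = l * k := by
    intro k hk l hl
    have h1 : k * l * k⁻¹ * l⁻¹ ∈ M₀ := by
      refine ⟨⟨?_, ?_⟩, ?_⟩
      · exact C₀.mul_mem (C₀.mul_mem (C₀.mul_mem hk.1 (hLC' hl)) (C₀.inv_mem hk.1)) (C₀.inv_mem (hLC' hl))
      · show MulAut.conj (k * l * k⁻¹ * l⁻¹) ∈ N
        have e : MulAut.conj (k * l * k⁻¹ * l⁻¹) =
            MulAut.conj k * (MulAut.conj l * (MulAut.conj k)⁻¹ * (MulAut.conj l)⁻¹) := by
          simp only [map_mul, map_inv, mul_assoc]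
        rw [e]
        exact N.mul_mem hk.2 (hnorm l (hLC l hl) _ (N.inv_mem hk.2))
      · exact L₀.mul_mem (hnormL k hk.1 l hl) (L₀.inv_mem hl)
    rw [hM₀] at h1
    have h3 : k * l * k⁻¹ * l⁻¹ = 1 := h1
    calc k * l = (k * l * k⁻¹ * l⁻¹) * (l * k) := by group
      _ = l * k := by rw [h3, one_mul]
  have hc : M₁ = ⊥ := by
    rw [Subgroup.eq_bot_iff_forall]
    intro k hk
    exact hcent k (hb k hk)
  have hd : ∀ α ∈ N, ∀ k, X k = k → α k = k := by
    intro α hα k hk
    have h1 : α k ∈ C₀ := by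
      show X (α k) = α k
      have h3 := congrArg (fun β : MulAut K => β k) (hcomm α hα)
      have h4 : α (X k) = X (α k) := h3
      rw [← h4, hk]
    have h3 : α k * k⁻¹ ∈ M₁ := by
      refine ⟨C₀.mul_mem h1 (C₀.inv_mem hk), ?_⟩
      show MulAut.conj (α k * k⁻¹) ∈ N
      have e : MulAut.conj (α k * k⁻¹) = α * (MulAut.conj k * α⁻¹ * (MulAut.conj k)⁻¹) := by
        rw [map_mul, conj_apply_eq, map_inv]
        simp only [mul_assoc]
      rw [e]
      exact N.mul_mem hα (hnorm k hk _ (N.inv_mem hα))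
    rw [hc] at h3
    have h4 : α k * k⁻¹ = 1 := h3
    exact mul_inv_eq_one.1 h4
  rw [Subgroup.eq_bot_iff_forall]
  intro α hα
  apply hfield α (fun l hl => hd α hα l (hLC l hl))
  exact Nat.Coprime.coprime_dvd_left (Subgroup.orderOf_dvd_natCard N hα) hcop

/-- The vanishing of the core for a conjugate of `X`. -/
theorem core_eq_bot [Finite K] {p : ℕ} [Fact p.Prime] (hcj : Function.Injective (MulAut.conj : K →* MulAut K))
    (X : MulAut K) (L₀ : Subgroup K) (hLC : ∀ l ∈ L₀, X l = l)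
    (hnormL : ∀ c, X c = c → ∀ l ∈ L₀, c * l * c⁻¹ ∈ L₀)
    (hdich : ∀ M : Subgroup K, M ≤ L₀ → (∀ l ∈ L₀, ∀ y ∈ M, l * y * l⁻¹ ∈ M) → ¬ p ∣ Nat.card M → M = ⊥)
    (hcent : ∀ k : K, (∀ l ∈ L₀, k * l = l * k) → k = 1)
    (hfield : ∀ α : MulAut K, (∀ l ∈ L₀, α l = l) → (orderOf α).Coprime p → α = 1)
    (A : Subgroup (MulAut K)) (hinn : ∀ k : K, MulAut.conj k ∈ A)
    (h x : MulAut K) (hx : x = h * X * h⁻¹) :
    pPrimeCore p ↥(A ⊓ Subgroup.centralizer {x}) = ⊥ := by
  apply sSup_eq_bot.2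
  rintro N ⟨hN, hcop⟩
  let ψ : ↥(A ⊓ Subgroup.centralizer {x}) →* MulAut K :=
    (MulAut.conj h⁻¹).toMonoidHom.comp (A ⊓ Subgroup.centralizer {x}).subtype
  have hψ : Function.Injective ψ := (MulAut.conj h⁻¹).injective.comp Subtype.val_injective
  have hψa : ∀ a, ψ a = h⁻¹ * a.1 * h := by
    intro a
    show h⁻¹ * a.1 * h⁻¹⁻¹ = _
    rw [inv_inv]
  have key : N.map ψ = ⊥ := by
    apply core_abstract hcj X L₀ hLC hnormL hdich hcent hfield
    · rintro α ⟨a, ha, rfl⟩
      rw [hψa]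
      have h1 : a.1 * x = x * a.1 := by
        have := Subgroup.mem_centralizer_iff.1 a.2.2 x rfl
        exact this.symm
      have h3 : X = h⁻¹ * x * h := by
        rw [hx]
        group
      rw [h3]
      calc h⁻¹ * a.1 * h * (h⁻¹ * x * h) = h⁻¹ * (a.1 * x) * h := by group
        _ = h⁻¹ * (x * a.1) * h := by rw [h1]
        _ = h⁻¹ * x * h * (h⁻¹ * a.1 * h) := by group
    · rintro k hk α ⟨a, ha, rfl⟩
      have h1 : h k ∈ Fixed x := by
        show x (h k) = h k
        rw [hx]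
        show h (X (h⁻¹ (h k))) = h k
        rw [show h⁻¹ (h k) = k from MulEquiv.symm_apply_apply h k, hk]
      let b : ↥(A ⊓ Subgroup.centralizer {x}) := ⟨MulAut.conj (h k), hinn _, conj_mem_cent h1⟩
      refine ⟨b * a * b⁻¹, hN.conj_mem a ha b, ?_⟩
      rw [hψa, hψa]
      show h⁻¹ * (MulAut.conj (h k) * a.1 * (MulAut.conj (h k))⁻¹) * h = _
      rw [conj_apply_eq]
      group
    · have e : Nat.card (N.map ψ) = Nat.card N := Nat.card_congr (Subgroup.equivMapOfInjective N ψ hψ).symm.toEquiv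
      rw [e]
      exact hcop
  rw [Subgroup.eq_bot_iff_forall]
  intro a ha
  have h1 : ψ a ∈ N.map ψ := ⟨a, ha, rfl⟩
  rw [key] at h1
  exact hψ (by rw [(Subgroup.mem_bot.1 h1), map_one])

/-- The reverse direction: the fixed points give a normal `p'`-subgroup. -/
theorem core_ne_bot {p : ℕ} (hcj : Function.Injective (MulAut.conj : K →* MulAut K)) (A : Subgroup (MulAut K))
    (hinn : ∀ k : K, MulAut.conj k ∈ A) (x : MulAut K) (hne : ∃ k ∈ Fixed x, k ≠ 1)
    (hcop : Nat.Coprime p (Nat.card (Fixed x))) : pPrimeCore p ↥(A ⊓ Subgroup.centralizer {x}) ≠ ⊥ := by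
  let φ : Fixed x →* ↥(A ⊓ Subgroup.centralizer {x}) :=
    { toFun := fun k => ⟨MulAut.conj k.1, hinn _, conj_mem_cent k.2⟩
      map_one' := Subtype.ext (map_one MulAut.conj)
      map_mul' := fun a b => Subtype.ext (map_mul MulAut.conj a.1 b.1) }
  have hφ : Function.Injective φ := by
    intro a b hab
    apply Subtype.ext
    apply hcj
    exact congrArg Subtype.val hab
  intro h0
  have hnorm : φ.range.Normal := by
    constructor
    rintro _ ⟨k, rfl⟩ β
    have hk : β.1 k.1 ∈ Fixed x := by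
      show x (β.1 k.1) = β.1 k.1
      have h1 := Subgroup.mem_centralizer_iff.1 β.2.2 x rfl
      have h3 := congrArg (fun γ : MulAut K => γ k.1) h1
      have h4 : x (β.1 k.1) = β.1 (x k.1) := h3
      have h5 : x k.1 = k.1 := k.2
      rw [h4, h5]
    refine ⟨⟨β.1 k.1, hk⟩, ?_⟩
    apply Subtype.ext
    show MulAut.conj (β.1 k.1) = β.1 * MulAut.conj k.1 * β.1⁻¹
    exact conj_apply_eq _ _
  have hcard : Nat.card φ.range = Nat.card (Fixed x) := Nat.card_congr (MonoidHom.ofInjective hφ).symm.toEquiv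
  have hle : φ.range ≤ pPrimeCore p ↥(A ⊓ Subgroup.centralizer {x}) :=
    le_sSup ⟨hnorm, by rw [hcard]; exact hcop.symm⟩
  rw [h0] at hle
  obtain ⟨k, hk, hk1⟩ := hne
  have h1 : φ ⟨k, hk⟩ = 1 := Subgroup.mem_bot.1 (hle ⟨_, rfl⟩)
  have h3 : (⟨k, hk⟩ : Fixed x) = 1 := hφ (by rw [h1, map_one])
  exact hk1 (congrArg Subtype.val h3)

/-- The cardinality of the fixed points of a conjugate. -/
theorem card_Fixed_conj (h X x : MulAut K) (hx : x = h * X * h⁻¹) : Nat.card (Fixed x) = Nat.card (Fixed X) := by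
  refine Nat.card_congr ⟨fun y => ⟨h⁻¹ y.1, ?_⟩, fun y => ⟨h y.1, ?_⟩, ?_, ?_⟩
  · have h1 : x y.1 = y.1 := y.2
    have h0 : (h * X * h⁻¹ : MulAut K) y.1 = y.1 := by
      have e := congrArg (fun β : MulAut K => β y.1) hx
      beta_reduce at e
      rw [← e]
      exact h1
    have h3 : h (X (h⁻¹ y.1)) = y.1 := h0
    show X (h⁻¹ y.1) = h⁻¹ y.1
    apply h.injective
    rw [h3]
    exact (MulEquiv.apply_symm_apply h _).symm
  · show x (h y.1) = h y.1
    rw [hx]
    show h (X (h⁻¹ (h y.1))) = h y.1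
    have h1 : X y.1 = y.1 := y.2
    rw [show h⁻¹ (h y.1) = y.1 from MulEquiv.symm_apply_apply h _, h1]
  · intro y
    apply Subtype.ext
    exact MulEquiv.apply_symm_apply h _
  · intro y
    apply Subtype.ext
    exact MulEquiv.symm_apply_apply h _

/-- The quotient by a normal subgroup: a normal subgroup of a perfect group with simple central quotient. -/
theorem dichotomy_abstract {G X : Type*} [Group G] [Group X] (hs : IsSimpleGroup (G ⧸ Subgroup.center G))
    (hperf : commutator G = ⊤) (π : G →* X) (hπ : ∀ z ∈ Subgroup.center G, π z = 1) (M : Subgroup X) (hle : M ≤ π.range)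
    (hn : ∀ g, ∀ y ∈ M, π g * y * (π g)⁻¹ ∈ M) (hne : M ≠ π.range) : M = ⊥ := by
  let M₁ : Subgroup G := M.comap π
  have hM₁ : M₁.Normal := ⟨fun y hy g => by
    show π (g * y * g⁻¹) ∈ M
    rw [map_mul, map_mul, map_inv]
    exact hn g _ hy⟩
  have hmapN : (M₁.map (QuotientGroup.mk' (Subgroup.center G))).Normal :=
    Subgroup.Normal.map hM₁ _ (QuotientGroup.mk'_surjective _)
  rcases hs.eq_bot_or_eq_top_of_normal _ hmapN with h | h
  · rw [Subgroup.eq_bot_iff_forall]
    intro y hy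
    obtain ⟨s, rfl⟩ := hle hy
    apply hπ
    have h1 : QuotientGroup.mk' (Subgroup.center G) s ∈ M₁.map (QuotientGroup.mk' (Subgroup.center G)) :=
      ⟨s, hy, rfl⟩
    rw [h] at h1
    exact (QuotientGroup.eq_one_iff s).1 h1
  · exfalso
    apply hne
    have hdecomp : ∀ g : G, ∃ m ∈ M₁, ∃ z ∈ Subgroup.center G, g = m * z := by
      intro g
      have h1 : QuotientGroup.mk' (Subgroup.center G) g ∈ M₁.map (QuotientGroup.mk' (Subgroup.center G)) := by
        rw [h]
        trivial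
      obtain ⟨m, hm, hmg⟩ := h1
      refine ⟨m, hm, m⁻¹ * g, ?_, by group⟩
      exact QuotientGroup.eq.1 hmg
    have hc : commutator G ≤ M₁ := by
      rw [commutator, Subgroup.commutator_le]
      intro a _ b _
      obtain ⟨m, hm, z, hz, rfl⟩ := hdecomp a
      obtain ⟨m', hm', z', hz', rfl⟩ := hdecomp b
      have hzc : ∀ y, z * y = y * z := fun y => (Subgroup.mem_center_iff.1 hz y).symm
      have hzc' : ∀ y, z' * y = y * z' := fun y => (Subgroup.mem_center_iff.1 hz' y).symm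
      have e : ⁅m * z, m' * z'⁆ = m * m' * m⁻¹ * m'⁻¹ := by
        rw [commutatorElement_def, _root_.mul_inv_rev, _root_.mul_inv_rev]
        calc m * z * (m' * z') * (z⁻¹ * m⁻¹) * (z'⁻¹ * m'⁻¹)
            = m * (z * m') * z' * z⁻¹ * m⁻¹ * z'⁻¹ * m'⁻¹ := by group
          _ = m * (m' * z) * z' * z⁻¹ * m⁻¹ * z'⁻¹ * m'⁻¹ := by rw [hzc]
          _ = m * m' * (z * z' * z⁻¹) * m⁻¹ * z'⁻¹ * m'⁻¹ := by group
          _ = m * m' * z' * m⁻¹ * z'⁻¹ * m'⁻¹ := by
              have : z * z' * z⁻¹ = z' := by rw [hzc z', mul_assoc, mul_inv_cancel, mul_one]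
              rw [this]
          _ = m * m' * (z' * m⁻¹) * z'⁻¹ * m'⁻¹ := by group
          _ = m * m' * (m⁻¹ * z') * z'⁻¹ * m'⁻¹ := by rw [hzc']
          _ = m * m' * m⁻¹ * m'⁻¹ := by group
      rw [e]
      exact M₁.mul_mem (M₁.mul_mem (M₁.mul_mem hm hm') (M₁.inv_mem hm)) (M₁.inv_mem hm')
    rw [hperf] at hc
    apply le_antisymm hle
    rintro _ ⟨g, rfl⟩
    exact hc (Subgroup.mem_top g)

/-- A non-trivial homomorphism killing the centre of a group with simple central quotient has the order of the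
quotient as the order of its range. -/
theorem card_range_of_simple {G X : Type*} [Group G] [Group X] (hs : IsSimpleGroup (G ⧸ Subgroup.center G)) (π : G →* X)
    (hπ : ∀ z ∈ Subgroup.center G, π z = 1) (hne : ∃ g, π g ≠ 1) :
    Nat.card π.range = Nat.card (G ⧸ Subgroup.center G) := by
  let φ : (G ⧸ Subgroup.center G) →* X := QuotientGroup.lift _ π hπ
  have hφ : Function.Injective φ := by
    rw [injective_iff_map_eq_one]
    intro y hy
    have h1 : φ.ker = ⊥ ∨ φ.ker = ⊤ := hs.eq_bot_or_eq_top_of_normal _ (MonoidHom.normal_ker φ)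
    rcases h1 with h1 | h1
    · have h3 : y ∈ φ.ker := hy
      rw [h1] at h3
      exact h3
    · exfalso
      obtain ⟨g, hg⟩ := hne
      apply hg
      have h3 : (QuotientGroup.mk g : G ⧸ Subgroup.center G) ∈ φ.ker := by
        rw [h1]
        trivial
      exact h3
  have h1 : π.range = φ.range := by
    ext y
    constructor
    · rintro ⟨g, rfl⟩
      exact ⟨QuotientGroup.mk g, rfl⟩
    · rintro ⟨g, rfl⟩
      obtain ⟨g, rfl⟩ := QuotientGroup.mk_surjective g
      exact ⟨g, rfl⟩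
  rw [h1]
  exact Nat.card_congr (MonoidHom.ofInjective hφ).symm.toEquiv

end Cfsg.Agent.Lib.LocalBal.Core
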