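/-
The orthogonal group over the fixed field of a field automorphism inside `PΩ`.
-/
import Mathlib
import Cfsg.Agent.Lib.Classical.OmegaFieldOdd
import Cfsg.Agent.Lib.LocalBal.Core

set_option autoImplicit false
set_option linter.unusedSectionVars false
set_option linter.unusedVariables false

namespace Cfsg.Agent.Lib.LocalBal.OmEmb

open Module QuadraticMap Matrix Cfsg.Agent.Lib.Witt.Quadratic Cfsg.Agent.Lib.Orth.Refl
open Cfsg.Agent.Lib.Orth.Gen Cfsg.Agent.Lib.OrthRefl.Eichler Cfsg.Agent.Lib.Classical.QuadEichler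
open Cfsg.Agent.Lib.Classical.QuadEichSimple Cfsg.Agent.Lib.Classical.OmegaHP Cfsg.Agent.Lib.Classical.OmegaLocal
open Cfsg.Agent.Lib.Classical.OmegaRoot Cfsg.Agent.Lib.Classical.OmegaSemi Cfsg.Agent.Lib.Classical.OmegaConj
open Cfsg.Agent.Lib.Classical.OmegaBar Cfsg.Agent.Lib.Classical.OmegaAut Cfsg.Agent.Lib.Classical.OmegaCount
open Cfsg.Agent.Lib.Orth.Forms Cfsg.Agent.Lib.Classical.BinaryForms Cfsg.Agent.Lib.Classical.QuadEichBridge
open Cfsg.Agent.Lib.Classical.OmegaForms Cfsg.Agent.Lib.Classical.OmegaOut Cfsg.Agent.Lib.Orth.Bridge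
open Cfsg.Agent.Lib.Classical.MatrixBridge
open Cfsg.Agent.Lib.Classical.OmegaPGO Cfsg.Agent.Lib.Classical.OmegaPGO2 Cfsg.Agent.Lib.Classical.OmegaFrob
open Cfsg.Agent.Lib.Classical.OmegaOutOdd Cfsg.Agent.Lib.Classical.OmegaDesc
open scoped commutatorElement

universe u

variable {F : Type u} [Field F] [Fintype F] {ι : Type} [Fintype ι] [DecidableEq ι]

/-- The fixed field is finite. -/
noncomputable instance instFintypeFx (σ : F ≃+* F) : Fintype (Fx σ) := Fintype.ofFinite _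

section embedding

variable {σ : F ≃+* F}

/-- The inclusion of the general linear group of the fixed field. -/
noncomputable abbrev jGL (σ : F ≃+* F) : GL ι (Fx σ) →* GL ι F := Matrix.GeneralLinearGroup.map (Fx σ).subtype

theorem coe_jGL (g : GL ι (Fx σ)) :
    ((jGL σ g : GL ι F) : Matrix ι ι F) = (g : Matrix ι ι (Fx σ)).map (Fx σ).subtype := rfl

theorem jGL_mulVec (g : GL ι (Fx σ)) (x : ι → Fx σ) :
    (jGL σ g).val *ᵥ incl σ x = incl σ (g.val *ᵥ x) := by
  ext i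
  simp [Matrix.mulVec, dotProduct, incl]

theorem jGL_fixed (g : GL ι (Fx σ)) : ((jGL σ g).val).map σ = (jGL σ g).val := by
  ext i j
  exact (g.val i j).2

theorem exists_lift_GL (u : GL ι F) (h : (u.val).map σ = u.val) : ∃ u₀ : GL ι (Fx σ), jGL σ u₀ = u := by
  have hinv : ((u⁻¹ : GL ι F).val).map σ = (u⁻¹ : GL ι F).val := by
    have h1 : ((u⁻¹ : GL ι F).val).map σ * u.val = 1 := by
      conv_lhs => rw [← h]
      have h3 := Matrix.map_mul (f := (σ : F →+* F)) (L := (u⁻¹ : GL ι F).val) (M := u.val)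
      have h4 : (u⁻¹ : GL ι F).val * u.val = 1 := Units.inv_mul u
      rw [h4] at h3
      have h5 : (1 : Matrix ι ι F).map (σ : F →+* F) = 1 := by
        ext i j
        simp [Matrix.one_apply, apply_ite σ]
      rw [h5] at h3
      exact h3.symm
    exact left_inv_eq_right_inv h1 (Units.mul_inv u)
  let U : Matrix ι ι (Fx σ) := Matrix.of fun i j => ⟨u.val i j, congrFun (congrFun h i) j⟩
  let V : Matrix ι ι (Fx σ) := Matrix.of fun i j => ⟨(u⁻¹ : GL ι F).val i j, congrFun (congrFun hinv i) j⟩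
  have hU : U.map (Fx σ).subtype = u.val := by
    ext i j
    rfl
  have hV : V.map (Fx σ).subtype = (u⁻¹ : GL ι F).val := by
    ext i j
    rfl
  have h1m : (1 : Matrix ι ι (Fx σ)).map (Fx σ).subtype = 1 := by
    ext i j
    simp [Matrix.one_apply, apply_ite]
  have hUV : U * V = 1 := by
    apply Matrix.map_injective (f := (Fx σ).subtype) Subtype.val_injective
    beta_reduce
    rw [Matrix.map_mul, hU, hV, h1m]
    exact Units.mul_inv u
  have hVU : V * U = 1 := by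
    apply Matrix.map_injective (f := (Fx σ).subtype) Subtype.val_injective
    beta_reduce
    rw [Matrix.map_mul, hU, hV, h1m]
    exact Units.inv_mul u
  exact ⟨⟨U, V, hUV, hVU⟩, Units.ext hU⟩

variable {Q : QuadraticForm F (ι → F)} (hσ : ∀ x : ι → F, Q (fun i => σ (x i)) = σ (Q x))

theorem jGL_mem {g : GL ι (Fx σ)} (hg : g ∈ Cfsg.isometryGroup (Fx σ) ⇑(descend Q hσ)) :
    jGL σ g ∈ Cfsg.isometryGroup F ⇑Q := by
  rw [mem_isometryGroup_iff]
  intro v
  have h1 := forms_eq_of_incl (σ := σ) (Q.comp (Matrix.toLin' (jGL σ g).val)) Q (fun x => ?_) v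
  · exact h1
  · show Q ((jGL σ g).val *ᵥ incl σ x) = Q (incl σ x)
    rw [jGL_mulVec]
    have h3 := (mem_isometryGroup_iff _ _).1 hg x
    have h4 := congrArg (Subtype.val) h3
    rw [descend_coe, descend_coe] at h4
    exact h4

/-- The inclusion of the isometry groups. -/
noncomputable def jIso : Cfsg.isometryGroup (Fx σ) ⇑(descend Q hσ) →* Cfsg.isometryGroup F ⇑Q where
  toFun g := ⟨jGL σ g.1, jGL_mem hσ g.2⟩
  map_one' := Subtype.ext (map_one _)
  map_mul' a b := Subtype.ext (map_mul _ _ _)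

theorem coe_jIso (g : Cfsg.isometryGroup (Fx σ) ⇑(descend Q hσ)) : (jIso hσ g).1 = jGL σ g.1 := rfl

theorem jIso_mem_omega (g : Cfsg.isometryGroup (Fx σ) ⇑(descend Q hσ)) (hg : g ∈ Cfsg.Omega (Fx σ) ⇑(descend Q hσ)) :
    jIso hσ g ∈ Cfsg.Omega F ⇑Q := by
  have h1 : (Cfsg.Omega (Fx σ) ⇑(descend Q hσ)).map (jIso hσ) ≤ Cfsg.Omega F ⇑Q := by
    rw [Cfsg.Omega, commutator, Subgroup.map_commutator]
    exact Subgroup.commutator_mono le_top le_top
  exact h1 ⟨g, hg, rfl⟩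

/-- The inclusion of `Ω`. -/
noncomputable def jOm : Cfsg.Omega (Fx σ) ⇑(descend Q hσ) →* Cfsg.Omega F ⇑Q where
  toFun g := ⟨jIso hσ g.1, jIso_mem_omega hσ g.1 g.2⟩
  map_one' := Subtype.ext (map_one _)
  map_mul' a b := Subtype.ext (map_mul _ _ _)

theorem coe_jOm (g : Cfsg.Omega (Fx σ) ⇑(descend Q hσ)) : (jOm hσ g).1 = jIso hσ g.1 := rfl

/-- The map to `PΩ`. -/
noncomputable def piO : Cfsg.Omega (Fx σ) ⇑(descend Q hσ) →* Cfsg.POmega F ⇑Q :=
  (QuotientGroup.mk' _).comp (jOm hσ)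

theorem piO_apply (g : Cfsg.Omega (Fx σ) ⇑(descend Q hσ)) : piO hσ g = QuotientGroup.mk (jOm hσ g) := rfl

/-- The subgroup of `PΩ` coming from the fixed field. -/
noncomputable def LL : Subgroup (Cfsg.POmega F ⇑Q) := (piO hσ).range

theorem exists_lift_iso (u : Cfsg.isometryGroup F ⇑Q) (h : ((u.1 : GL ι F).val).map σ = (u.1 : GL ι F).val) :
    ∃ u₀ : Cfsg.isometryGroup (Fx σ) ⇑(descend Q hσ), jIso hσ u₀ = u := by
  obtain ⟨u₀, hu₀⟩ := exists_lift_GL u.1 h
  have hmem : u₀ ∈ Cfsg.isometryGroup (Fx σ) ⇑(descend Q hσ) := by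
    rw [mem_isometryGroup_iff]
    intro x
    apply Subtype.ext
    rw [descend_coe, descend_coe, ← jGL_mulVec, hu₀]
    exact (mem_isometryGroup_iff _ _).1 u.2 _
  exact ⟨⟨u₀, hmem⟩, Subtype.ext hu₀⟩

/-- A linear map fixed on the rational vectors is determined. -/
theorem ext_incl {W : Type*} [AddCommGroup W] [Module F W] (A B : (ι → F) →ₗ[F] W)
    (h : ∀ y : ι → Fx σ, A (incl σ y) = B (incl σ y)) : A = B := by
  apply LinearMap.pi_ext
  intro i c
  have h1 : (Pi.single i c : ι → F) = c • incl σ (Pi.single i 1) := by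
    rw [incl_single, OneMemClass.coe_one]
    ext j
    by_cases hj : j = i
    · subst hj
      simp
    · simp [hj]
  rw [h1, map_smul, map_smul, h]

theorem incl_eichLin (a b x : ι → Fx σ) :
    incl σ (eichLin (descend Q hσ) a b x) = eichLin Q (incl σ a) (incl σ b) (incl σ x) := by
  rw [eichLin_apply, eichLin_apply]
  ext i
  simp only [incl_apply, Pi.sub_apply, Pi.add_apply, Pi.smul_apply, smul_eq_mul,
    AddSubgroupClass.coe_sub, AddMemClass.coe_add, MulMemClass.coe_mul]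
  rw [polar_descend_coe, polar_descend_coe, descend_coe]

end embedding

section rational

variable {σ : F ≃+* F} {Q : QuadraticForm F (ι → F)} (hσ : ∀ x : ι → F, Q (fun i => σ (x i)) = σ (Q x))
variable (hQ : (polarBilin Q).Nondegenerate) (hn : 5 ≤ Fintype.card ι)

include hQ hn in
/-- Rational Eichler transformations. -/
theorem rat_root {a₀ b₀ : ι → Fx σ} (ha : descend Q hσ a₀ = 0) (hab : polar (descend Q hσ) a₀ b₀ = 0) :
    ∃ t₀ : Cfsg.Omega (Fx σ) ⇑(descend Q hσ), EAt Q (incl σ a₀) (incl σ b₀) (omegaEquiv Q hQ hn (jOm hσ t₀)).1 := by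
  have hQ₀ := descend_nondeg Q hσ hQ
  let E₀ : eGroup (descend Q hσ) := eEl a₀ b₀ ha hab
  have hE₀ : EAt (descend Q hσ) a₀ b₀ E₀.1 := eEl_eAt a₀ b₀ ha hab
  refine ⟨(omegaEquiv (descend Q hσ) hQ₀ hn).symm E₀, ?_, ?_, ?_⟩
  · rw [← descend_coe Q hσ, ha]
    rfl
  · rw [← polar_descend_coe Q hσ, hab]
    rfl
  · intro x
    let A : (ι → F) →ₗ[F] (ι → F) := ((omegaEquiv Q hQ hn (jOm hσ ((omegaEquiv (descend Q hσ) hQ₀ hn).symm E₀))).1 : (ι → F) ≃ₗ[F] (ι → F)).toLinearMap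
    have hAB : A = eichLin Q (incl σ a₀) (incl σ b₀) := by
      apply ext_incl (σ := σ)
      intro y
      show (omegaEquiv Q hQ hn (jOm hσ ((omegaEquiv (descend Q hσ) hQ₀ hn).symm E₀))).1 (incl σ y) = _
      rw [omegaEquiv_apply]
      show (jGL σ ((((omegaEquiv (descend Q hσ) hQ₀ hn).symm E₀).1 : _ ).1)).val *ᵥ incl σ y = _
      rw [jGL_mulVec, ← incl_eichLin hσ, ← hE₀.apply]
      congr 1
      have h1 := omegaEquiv_apply (descend Q hσ) hQ₀ hn ((omegaEquiv (descend Q hσ) hQ₀ hn).symm E₀) y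
      rw [MulEquiv.apply_symm_apply] at h1
      exact h1.symm
    exact congrArg (fun f : (ι → F) →ₗ[F] (ι → F) => f x) hAB

end rational

end Cfsg.Agent.Lib.LocalBal.OmEmb
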