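/-
Automorphisms of `PΩ` centralising the orthogonal group of the fixed field.
-/
import Mathlib
import Cfsg.Agent.Lib.LocalBal.OmEmb

set_option autoImplicit false
set_option linter.unusedSectionVars false
set_option linter.unusedVariables false

namespace Cfsg.Agent.Lib.LocalBal.OmFix

open Module QuadraticMap Matrix Cfsg.Agent.Lib.Witt.Quadratic Cfsg.Agent.Lib.Orth.Refl
open Cfsg.Agent.Lib.Orth.Gen Cfsg.Agent.Lib.OrthRefl.Eichler Cfsg.Agent.Lib.Classical.QuadEichler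
open Cfsg.Agent.Lib.Classical.QuadEichSimple Cfsg.Agent.Lib.Classical.OmegaHP Cfsg.Agent.Lib.Classical.OmegaLocal
open Cfsg.Agent.Lib.Classical.OmegaRoot Cfsg.Agent.Lib.Classical.OmegaSemi Cfsg.Agent.Lib.Classical.OmegaConj
open Cfsg.Agent.Lib.Classical.OmegaBar Cfsg.Agent.Lib.Classical.OmegaAut Cfsg.Agent.Lib.Classical.OmegaCount
open Cfsg.Agent.Lib.Orth.Forms Cfsg.Agent.Lib.Classical.BinaryForms Cfsg.Agent.Lib.Classical.QuadEichBridge
open Cfsg.Agent.Lib.Classical.OmegaForms Cfsg.Agent.Lib.Classical.OmegaOut Cfsg.Agent.Lib.Orth.Bridge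
open Cfsg.Agent.Lib.Classical.MatrixBridge
open Cfsg.Agent.Lib.Classical.OmegaPGO Cfsg.Agent.Lib.Classical.OmegaPGO2 Cfsg.Agent.Lib.Classical.OmegaFrob
open Cfsg.Agent.Lib.Classical.OmegaOutOdd Cfsg.Agent.Lib.Classical.OmegaDesc
open Cfsg.Agent.Lib.LocalBal.OmEmb
open scoped commutatorElement

universe u

variable {F : Type u} [Field F] [Fintype F] {ι : Type} [Fintype ι] [DecidableEq ι]
variable {σ : F ≃+* F} {Q : QuadraticForm F (ι → F)} (hσ : ∀ x : ι → F, Q (fun i => σ (x i)) = σ (Q x))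
variable (hQ : (polarBilin Q).Nondegenerate) (hn : 5 ≤ Fintype.card ι)
variable (r : ℕ) [hr : Fact r.Prime] [hc : CharP F r]

include hQ hn in
theorem finrank_ge : 5 ≤ finrank F (ι → F) := by rw [finrank_eq]; exact hn

include hQ hn r in
/-- An automorphism in the group of semisimilarities fixing the rational points fixes rational singular points. -/
theorem rat_point {T : SemiEl Q} {θ : F ≃+* F} {l : F} (H : Semi Q T.1 θ l)
    (hfix : ∀ k ∈ LL hσ, conjS hQ hn T k = k) {a₀ : ι → Fx σ} (ha0 : a₀ ≠ 0) (ha : descend Q hσ a₀ = 0) :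
    ∃ c : F, T.1 (incl σ a₀) = c • incl σ a₀ := by
  classical
  have hQ₀ := descend_nondeg Q hσ hQ
  have hn' := finrank_ge hQ hn
  have hfin₀ : finrank (Fx σ) (ι → Fx σ) = Fintype.card ι := finrank_eq
  obtain ⟨b₀, hb₀, hperp⟩ := exists_nonsingular_perp (Q := descend Q hσ) (k := 1) hQ₀ (by rw [hfin₀]; omega) ![a₀]
  have hab : polar (descend Q hσ) a₀ b₀ = 0 := by simpa using hperp 0
  obtain ⟨t₀, hE⟩ := rat_root hσ hQ hn ha hab
  set E := omegaEquiv Q hQ hn (jOm hσ t₀) with hEdef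
  set a := incl σ a₀ with hadef
  have ha0' : a ≠ 0 := by
    intro h
    apply ha0
    funext i
    exact Subtype.ext (congrFun h i)
  have h1 := hfix _ ⟨t₀, rfl⟩
  have h2 : pi Q (conjG H E) = pi Q E := by
    have h3 := congrArg (pOmegaEquiv Q hQ hn) h1
    rw [pOmegaEquiv_conjS, phi_apply T H] at h3
    exact h3
  by_contra hcon
  push Not at hcon
  have hind : ∀ s : F, s • a ≠ T.1 a := fun s hs => hcon s hs.symm
  have hQa : Q a = 0 := hE.Qa
  have hQga : Q (T.1 a) = 0 := by rw [H.Q_eq, hQa, map_zero, mul_zero]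
  have hmem : pi Q E ∈ Tb hQga := by
    rw [← h2]
    exact Subgroup.mem_map_of_mem _ ⟨_, H.eAt hE⟩
  have h3 : E ^ (r ^ 1) = 1 := by
    rw [pow_one]
    exact Subtype.ext (hE.pow_char r)
  obtain ⟨b', hb'⟩ := mem_tSub_of_pi hQ r hn' hQga h3 hmem
  have hQb : Q (incl σ b₀) ≠ 0 := by
    rw [← descend_coe Q hσ]
    intro h0
    exact hb₀ (Subtype.ext h0)
  have hE1 : E.1 ≠ 1 := by
    intro h3
    obtain ⟨x, hx⟩ := exists_polar_single hQ ha0' 1
    have h4 := hE.apply' x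
    rw [h3, hx] at h4
    have h5 : incl σ b₀ = (polar Q x (incl σ b₀) - Q (incl σ b₀) * 1) • a := by
      have h6 : x = x + polar Q x (incl σ b₀) • a - (1 : F) • incl σ b₀ - (Q (incl σ b₀) * 1) • a := h4
      linear_combination (norm := module) h6
    apply hQb
    rw [h5, QuadraticMap.map_smul, hQa, smul_zero]
  obtain ⟨h4, c, d, -, h5⟩ := hE.inter hQ hb' ha0' hind hE1
  apply hQb
  rw [h5, Q_add, QuadraticMap.map_smul, QuadraticMap.map_smul, hQa, hQga, polar_smul_left, polar_smul_right, h4]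
  simp

theorem prop_of_incl {a₀ b₀ : ι → Fx σ} (hb0 : b₀ ≠ 0) {s : F} (h : incl σ a₀ = s • incl σ b₀) :
    ∃ s₀ : Fx σ, a₀ = s₀ • b₀ := by
  classical
  obtain ⟨i, hi⟩ : ∃ i, b₀ i ≠ 0 := by
    by_contra hcon
    push Not at hcon
    exact hb0 (funext hcon)
  have hi' : (b₀ i : F) ≠ 0 := fun h0 => hi (Subtype.ext h0)
  have h1 := congrFun h i
  simp only [incl_apply, Pi.smul_apply, smul_eq_mul] at h1
  have hs : s = (a₀ i : F) / (b₀ i : F) := by
    rw [h1]
    field_simp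
  have hsmem : s ∈ Fx σ := by
    rw [hs]
    exact div_mem (a₀ i).2 (b₀ i).2
  refine ⟨⟨s, hsmem⟩, ?_⟩
  funext j
  apply Subtype.ext
  have h3 := congrFun h j
  simpa using h3

include hQ hn r in
/-- Two orthogonal independent rational singular vectors have the same eigenvalue, and `θ` fixes the fixed field. -/
theorem rat_same {T : SemiEl Q} {θ : F ≃+* F} {l : F} (H : Semi Q T.1 θ l)
    (hfix : ∀ k ∈ LL hσ, conjS hQ hn T k = k) {a₀ b₀ : ι → Fx σ} (ha0 : a₀ ≠ 0) (hb0 : b₀ ≠ 0)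
    (ha : descend Q hσ a₀ = 0) (hb : descend Q hσ b₀ = 0) (hab : polar (descend Q hσ) a₀ b₀ = 0)
    (hind : ∀ s : Fx σ, a₀ ≠ s • b₀) {c d : F} (hc : T.1 (incl σ a₀) = c • incl σ a₀)
    (hd : T.1 (incl σ b₀) = d • incl σ b₀) : c = d ∧ ∀ x, σ x = x → θ x = x := by
  have hb' : incl σ b₀ ≠ 0 := by
    intro h
    apply hb0
    funext i
    exact Subtype.ext (congrFun h i)
  have ha' : incl σ a₀ ≠ 0 := by
    intro h
    apply ha0
    funext i
    exact Subtype.ext (congrFun h i)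
  have hc0 : c ≠ 0 := by
    rintro rfl
    rw [zero_smul] at hc
    exact ha' (T.1.map_eq_zero_iff.1 hc)
  have key : ∀ x : Fx σ, c * x = θ x * d := by
    intro x
    set w₀ := a₀ + x • b₀ with hw₀
    have hw : descend Q hσ w₀ = 0 := by
      rw [hw₀, Q_add, QuadraticMap.map_smul, polar_smul_right, ha, hb, hab]
      simp
    have hw0 : w₀ ≠ 0 := by
      intro h0
      apply hind (-x)
      rw [neg_smul]
      exact eq_neg_of_add_eq_zero_left h0
    obtain ⟨e, he⟩ := rat_point hσ hQ hn r H hfix hw0 hw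
    have hincl : incl σ w₀ = incl σ a₀ + (x : F) • incl σ b₀ := by
      rw [hw₀, incl_add, incl_smul]
    rw [hincl, map_add, H.smul, hc, hd, smul_add, smul_smul, smul_smul] at he
    have h1 : (c - e) • incl σ a₀ = (e * x - θ x * d) • incl σ b₀ := by
      rw [sub_smul, sub_smul]
      linear_combination (norm := module) he
    by_cases hce : c - e = 0
    · have hce' : c = e := sub_eq_zero.1 hce
      rw [hce, zero_smul] at h1
      have h3 := (smul_eq_zero.1 h1.symm).resolve_right hb'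
      rw [hce']
      exact sub_eq_zero.1 h3
    · exfalso
      have h3 : incl σ a₀ = ((c - e)⁻¹ * (e * x - θ x * d)) • incl σ b₀ := by
        rw [mul_smul, ← h1, smul_smul, inv_mul_cancel₀ hce, one_smul]
      obtain ⟨s₀, hs₀⟩ := prop_of_incl hb0 h3
      exact hind s₀ hs₀
  have h1 := key 1
  simp only [OneMemClass.coe_one, mul_one, map_one, one_mul] at h1
  refine ⟨h1, fun x hx => ?_⟩
  have h3 := key ⟨x, hx⟩
  rw [← h1] at h3
  have h4 : c * x = c * θ x := by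
    rw [mul_comm c (θ x)]
    exact h3
  exact (mul_left_cancel₀ hc0 h4).symm

include hQ in
/-- A common orthogonal singular vector. -/
theorem exists_common {a₀ a₁ : ι → Fx σ} (hn7 : 7 ≤ Fintype.card ι) (ha0 : a₀ ≠ 0) (ha1 : a₁ ≠ 0) :
    ∃ d₀ : ι → Fx σ, d₀ ≠ 0 ∧ descend Q hσ d₀ = 0 ∧ polar (descend Q hσ) a₀ d₀ = 0 ∧ polar (descend Q hσ) a₁ d₀ = 0 ∧
      (∀ s : Fx σ, a₀ ≠ s • d₀) ∧ (∀ s : Fx σ, a₁ ≠ s • d₀) := by
  classical
  have hQ₀ := descend_nondeg Q hσ hQ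
  have hfin₀ : finrank (Fx σ) (ι → Fx σ) = Fintype.card ι := finrank_eq
  obtain ⟨u₀, hu₀⟩ := exists_polar_single hQ₀ ha0 1
  obtain ⟨u₁, hu₁⟩ := exists_polar_single hQ₀ ha1 1
  obtain ⟨d₀, hd0, hd, hperp⟩ := exists_singular_perp (Q := descend Q hσ) (k := 4) (by rw [hfin₀]; omega) ![a₀, a₁, u₀, u₁]
  have h0 : polar (descend Q hσ) a₀ d₀ = 0 := by simpa using hperp 0
  have h1 : polar (descend Q hσ) a₁ d₀ = 0 := by simpa using hperp 1
  have h2 : polar (descend Q hσ) u₀ d₀ = 0 := by simpa using hperp 2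
  have h3 : polar (descend Q hσ) u₁ d₀ = 0 := by simpa using hperp 3
  refine ⟨d₀, hd0, hd, h0, h1, fun s hs => ?_, fun s hs => ?_⟩
  · rw [hs, polar_smul_right, h2, smul_zero] at hu₀
    exact zero_ne_one hu₀
  · rw [hs, polar_smul_right, h3, smul_zero] at hu₁
    exact zero_ne_one hu₁

include hQ hn r in
/-- The common eigenvalue on all rational singular vectors. -/
theorem rat_scalar {T : SemiEl Q} {θ : F ≃+* F} {l : F} (H : Semi Q T.1 θ l) (hn7 : 7 ≤ Fintype.card ι)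
    (hfix : ∀ k ∈ LL hσ, conjS hQ hn T k = k) :
    ∃ c : F, c ≠ 0 ∧ (∀ a₀ : ι → Fx σ, descend Q hσ a₀ = 0 → T.1 (incl σ a₀) = c • incl σ a₀) ∧
      ∀ x, σ x = x → θ x = x := by
  classical
  have hfin₀ : finrank (Fx σ) (ι → Fx σ) = Fintype.card ι := finrank_eq
  obtain ⟨a₁, ha10, ha1, -⟩ := exists_singular_perp (Q := descend Q hσ) (k := 0) (by rw [hfin₀]; omega) ![]
  obtain ⟨c, hc⟩ := rat_point hσ hQ hn r H hfix ha10 ha1
  have hinc : ∀ {a₀ : ι → Fx σ}, a₀ ≠ 0 → incl σ a₀ ≠ 0 := by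
    intro a₀ ha0 h
    apply ha0
    funext i
    exact Subtype.ext (congrFun h i)
  have hc0 : c ≠ 0 := by
    rintro rfl
    rw [zero_smul] at hc
    exact hinc ha10 (T.1.map_eq_zero_iff.1 hc)
  obtain ⟨d₁, hd10, hd1, h1, -, h3, -⟩ := exists_common (σ := σ) hσ hQ hn7 ha10 ha10
  obtain ⟨e₁, he₁⟩ := rat_point hσ hQ hn r H hfix hd10 hd1
  have hθ := (rat_same hσ hQ hn r H hfix ha10 hd10 ha1 hd1 h1 h3 hc he₁).2
  refine ⟨c, hc0, fun a₀ ha => ?_, hθ⟩
  by_cases ha0 : a₀ = 0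
  · subst ha0
    have : incl σ (0 : ι → Fx σ) = 0 := rfl
    rw [this, map_zero, smul_zero]
  obtain ⟨d₀, hd0, hd, h01, h02, h03, h04⟩ := exists_common (σ := σ) hσ hQ hn7 ha10 ha0
  obtain ⟨e, he⟩ := rat_point hσ hQ hn r H hfix hd0 hd
  obtain ⟨e', he'⟩ := rat_point hσ hQ hn r H hfix ha0 ha
  have h5 := (rat_same hσ hQ hn r H hfix ha10 hd0 ha1 hd h01 h03 hc he).1
  have h6 := (rat_same hσ hQ hn r H hfix ha0 hd0 ha hd h02 h04 he' he).1
  rw [he', h6, ← h5]

include hQ hn in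
/-- Rational vectors are combinations of rational singular vectors. -/
theorem rat_all {T : SemiEl Q} {θ : F ≃+* F} {l : F} (H : Semi Q T.1 θ l) (hθ : ∀ x, σ x = x → θ x = x) {c : F}
    (hc : ∀ a₀ : ι → Fx σ, descend Q hσ a₀ = 0 → T.1 (incl σ a₀) = c • incl σ a₀) (y : ι → Fx σ) :
    T.1 (incl σ y) = c • incl σ y := by
  classical
  have hQ₀ := descend_nondeg Q hσ hQ
  have hfin₀ : finrank (Fx σ) (ι → Fx σ) = Fintype.card ι := finrank_eq
  obtain ⟨e, f, hef⟩ := exists_hp hQ₀ (by rw [hfin₀]; omega)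
  set Q₀ := descend Q hσ with hQ₀def
  set α := polar Q₀ y f with hα
  set β := polar Q₀ y e with hβ
  set u := y - α • e - β • f with hu
  have hue : polar Q₀ u e = 0 := by
    rw [hu, polar_sub_left, polar_sub_left, polar_smul_left, polar_smul_left, hef.ee, hef.fe]
    simp [hβ]
  have huf : polar Q₀ u f = 0 := by
    rw [hu, polar_sub_left, polar_sub_left, polar_smul_left, polar_smul_left, hef.ef, hef.ff]
    simp [hα]
  set w := u + e - Q₀ u • f with hw
  have hwQ : Q₀ w = 0 := by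
    have e1 : w = u + (e + (-(Q₀ u)) • f) := by
      rw [hw, neg_smul]
      abel
    rw [e1, Q_add, Q_add, QuadraticMap.map_smul, hef.Qe, hef.Qf, polar_add_right, polar_smul_right, polar_smul_right,
      hue, huf, hef.ef]
    simp
  have hy : y = w + (α - 1) • e + (β + Q₀ u) • f := by
    rw [hw, hu]
    module
  have hsmul : ∀ (s : Fx σ) (v : ι → Fx σ), T.1 (incl σ (s • v)) = (s : F) • T.1 (incl σ v) := by
    intro s v
    rw [incl_smul, H.smul, hθ _ s.2]
  rw [hy, incl_add, incl_add, map_add, map_add, hsmul, hsmul, hc w hwQ, hc e hef.Qe, hc f hef.Qf, incl_smul, incl_smul]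
  simp only [smul_add, smul_comm c]

/-- The semisimilarity is a scalar multiple of a coordinate automorphism. -/
theorem T_eq_coord {T : SemiEl Q} {θ : F ≃+* F} {l : F} (H : Semi Q T.1 θ l)
    (hθQ : ∀ x : ι → F, Q (fun i => θ (x i)) = θ (Q x)) {c : F} (hc0 : c ≠ 0)
    (hall : ∀ y : ι → Fx σ, T.1 (incl σ y) = c • incl σ y) (hθ : ∀ x, σ x = x → θ x = x) :
    T = scS' c hc0 * coordS θ hθQ := by
  classical
  apply Subtype.ext
  ext1 x
  show T.1 x = c • (fun i => θ (x i))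
  have hx : x = ∑ i, x i • incl σ (Pi.single i 1) := by
    ext j
    simp only [Finset.sum_apply, Pi.smul_apply, smul_eq_mul, incl_apply]
    rw [Finset.sum_eq_single j]
    · simp
    · intro i _ hi
      simp [Ne.symm hi]
    · simp
  conv_lhs => rw [hx]
  rw [map_sum]
  have h1 : ∀ i, T.1 (x i • incl σ (Pi.single i 1)) = (c * θ (x i)) • (Pi.single i 1 : ι → F) := by
    intro i
    rw [H.smul, hall, incl_single, OneMemClass.coe_one, smul_smul, mul_comm]
  simp only [h1]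
  ext j
  simp only [Finset.sum_apply, Pi.smul_apply, smul_eq_mul]
  rw [Finset.sum_eq_single j]
  · simp
  · intro i _ hi
    simp [Ne.symm hi]
  · simp

include hQ hn r in
/-- **The centraliser of the rational group.** -/
theorem cent_of_fix (hn7 : 7 ≤ Fintype.card ι) (h8 : NoSolid Q)
    (hcoord : ∀ (θ : F ≃+* F) (x : ι → F), Q (fun i => θ (x i)) = θ (Q x))
    (α : MulAut (Cfsg.POmega F ⇑Q)) (hα : ∀ k ∈ LL hσ, α k = k) :
    ∃ θ : F ≃+* F, α = conjS hQ hn (coordS θ (hcoord θ)) ∧ ∀ x, σ x = x → θ x = x := by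
  obtain ⟨T, rfl⟩ := conjS_surjective hQ hn r hn7 h8 α
  obtain ⟨θ, l, H⟩ := T.2
  obtain ⟨c, hc0, hc, hθ⟩ := rat_scalar hσ hQ hn r H hn7 hα
  have hall := rat_all hσ hQ hn H hθ hc
  have hT := T_eq_coord (σ := σ) H (hcoord θ) hc0 hall hθ
  refine ⟨θ, ?_, hθ⟩
  rw [hT, map_mul, conjS_scS' hQ hn r, one_mul]

end Cfsg.Agent.Lib.LocalBal.OmFix
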