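/-
Normal subgroups of `Sp_{2m}(F)`: a normal subgroup is central or contains the commutator subgroup, and the
abelianisation is a group of prime-characteristic-power order.  Hence a normal subgroup of a quotient of
`Sp_{2m}(F)` of order prime to a prime `p ≠ char F` dividing the order of the quotient is trivial.
-/
import Mathlib
import Cfsg.Agent.Lib.KS71.PSpCore
import Cfsg.Agent.Lib.Classical.AltSimple
import Cfsg.Agent.Lib.Orth.Bridge

set_option autoImplicit false

namespace Cfsg.Agent.Lib.LocalBal.SpNormal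

open Matrix Cfsg MulAction
open Cfsg.Agent.Lib.Classical.SympForm Cfsg.Agent.Lib.Classical.SympSimple Cfsg.Agent.Lib.Classical.AltSimple
open Cfsg.Agent.Lib.Classical.Alt
open Cfsg.Agent.Lib.KS71.PSpCore
open scoped LinearAlgebra.Projectivization

variable {F : Type*} [Field F] {m : ℕ}

theorem normal_dichotomy [Finite F] (hm : 1 ≤ m) (M : Subgroup (Sp m F)) (hM : M.Normal) :
    M ≤ Subgroup.center (Sp m F) ∨ commutator (Sp m F) ≤ M := by
  classical
  let e := spEquiv (m := m) (F := F)
  let N : Subgroup (isomGroup (sympBilin m F)) := M.map e.toMonoidHom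
  have hN : N.Normal := hM.map _ e.surjective
  have hV : Nontrivial (Fin m ⊕ Fin m → F) := by
    let i0 : Fin m := ⟨0, by omega⟩
    haveI : Nonempty (Fin m ⊕ Fin m) := ⟨Sum.inl i0⟩
    infer_instance
  have hprim := isPreprimitive_points (sympBilin_nondegenerate (m := m) (F := F)) sympBilin_isAlt
  by_cases hfix : fixedPoints N (ℙ F (Fin m ⊕ Fin m → F)) = Set.univ
  · left
    intro s hs
    have h1 : e s ∈ Subgroup.center (isomGroup (sympBilin m F)) := mem_center_of_fix_points _ (fun p => by
      have hp : p ∈ fixedPoints N (ℙ F (Fin m ⊕ Fin m → F)) := by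
        rw [hfix]
        trivial
      exact hp ⟨e s, ⟨s, hs, rfl⟩⟩)
    rw [← map_center_mulEquiv e] at h1
    obtain ⟨z, hz, hzs⟩ := h1
    have : z = s := e.injective hzs
    rwa [← this]
  · right
    have h1 := (iwasawa sympBilin_nondegenerate sympBilin_isAlt).commutator_le N hfix
    intro s hs
    have h3 := h1 ((Cfsg.Agent.Lib.Orth.Bridge.mem_commutator_equiv e s).1 hs)
    obtain ⟨z, hz, hzs⟩ := h3
    have : z = s := e.injective hzs
    rwa [← this]

theorem ts_pow (v : Fin m ⊕ Fin m → F) (c : F) (n : ℕ) : (ts v c) ^ n = ts v ((n : F) * c) := by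
  induction n with
  | zero => simp [ts_zero]
  | succ n ih =>
    rw [pow_succ, ih, ts_mul]
    congr 1
    push_cast
    ring

theorem isPGroup_abelianization {r : ℕ} [CharP F r] :
    IsPGroup r (Abelianization (Sp m F)) := by
  have key : ∀ g : Sp m F, (Abelianization.of g) ^ r = 1 := by
    intro g
    have hg : g ∈ Subgroup.closure (transvectionSet m F) := by
      rw [closure_transvectionSet]
      trivial
    induction hg using Subgroup.closure_induction with
    | mem x hx =>
      obtain ⟨w, c, hA⟩ := hx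
      have : x = ts w c := Subtype.ext hA
      rw [this, ← map_pow, ts_pow, CharP.cast_eq_zero, zero_mul, ts_zero, map_one]
    | one => simp
    | mul a b _ _ ha hb => rw [map_mul, mul_pow, ha, hb, one_mul]
    | inv a _ ha => rw [map_inv, inv_pow, ha, inv_one]
  intro x
  obtain ⟨g, rfl⟩ := QuotientGroup.mk_surjective x
  exact ⟨1, by rw [pow_one]; exact key g⟩

theorem eq_bot_of_normal [Finite F] {X : Type*} [Group X] {r : ℕ} [Fact r.Prime] [CharP F r] (hm : 1 ≤ m)
    (π : Sp m F →* X) (hπ : ∀ s ∈ Subgroup.center (Sp m F), π s = 1) {p : ℕ} [Fact p.Prime] (hpr : p ≠ r)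
    (hdvd : p ∣ Nat.card π.range) (M : Subgroup X) (hle : M ≤ π.range)
    (hn : ∀ s, ∀ y ∈ M, π s * y * (π s)⁻¹ ∈ M) (hcop : ¬ p ∣ Nat.card M) : M = ⊥ := by
  let M₁ : Subgroup (Sp m F) := M.comap π
  have hM₁ : M₁.Normal := ⟨fun y hy g => by
    show π (g * y * g⁻¹) ∈ M
    rw [map_mul, map_mul, map_inv]
    exact hn g _ hy⟩
  rcases normal_dichotomy hm M₁ hM₁ with h | h
  · rw [Subgroup.eq_bot_iff_forall]
    intro y hy
    obtain ⟨s, rfl⟩ := hle hy
    exact hπ s (h hy)
  · exfalso
    let R : Subgroup X := π.range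
    let M' : Subgroup R := M.subgroupOf R
    have h1 : Nat.card M' = Nat.card M := Nat.card_congr (Subgroup.subgroupOfEquivOfLe hle).toEquiv
    have h2 : Nat.card M' * M'.index = Nat.card R := Subgroup.card_mul_index M'
    have h3 : M₁ = M'.comap π.rangeRestrict := rfl
    have h4 : M₁.index = M'.index := by
      rw [h3]
      exact Subgroup.index_comap_of_surjective _ π.rangeRestrict_surjective
    have h5 : M₁.index ∣ (commutator (Sp m F)).index := Subgroup.index_dvd_of_le h
    obtain ⟨k, hk⟩ := IsPGroup.iff_card.1 (isPGroup_abelianization (F := F) (m := m) (r := r))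
    have h6 : (commutator (Sp m F)).index = r ^ k := hk
    have hp : p.Prime := Fact.out
    have h7 : p ∣ Nat.card M' * M'.index := by
      rw [h2]
      exact hdvd
    rcases (Nat.Prime.dvd_mul hp).1 h7 with h8 | h8
    · rw [h1] at h8
      exact hcop h8
    · rw [← h4] at h8
      have h9 : p ∣ r ^ k := by
        rw [← h6]
        exact h8.trans h5
      have h10 := hp.dvd_of_dvd_pow h9
      exact hpr ((Nat.prime_dvd_prime_iff_eq hp Fact.out).1 h10)

end Cfsg.Agent.Lib.LocalBal.SpNormal
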