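/-
The subgroup of `PSp_{2m}(F)` fixed by a field automorphism of prime order, and the automorphisms centralising
the symplectic group over the fixed field.
-/
import Mathlib
import Cfsg.Agent.Lib.LocalBal.SpNormal
import Cfsg.Agent.Lib.KS71.PSpClass
import Cfsg.Agent.Lib.KS71.PSp4Graph

set_option autoImplicit false

namespace Cfsg.Agent.Lib.LocalBal.SpField

open Matrix Cfsg
open Cfsg.Agent.Lib.Classical.SympForm Cfsg.Agent.Lib.Classical.SympSimple
open Cfsg.Agent.Lib.KS71.PSpCore Cfsg.Agent.Lib.KS71.PSpGroup Cfsg.Agent.Lib.KS71.PSpTInv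
open Cfsg.Agent.Lib.KS71.PSpCard Cfsg.Agent.Lib.KS71.PSpClass Cfsg.Agent.Lib.KS71.PSp4Graph
open Cfsg.Agent.Lib.KS71.PSpTwist

variable {F : Type*} [Field F] {m : ℕ}

/-! ### Preservation of the transvections -/

/-- In the exceptional case the classes of transvections and of the elements `IsY` are disjoint. -/
theorem not_isT_isY [Fintype F] (h2 : (2 : F) = 0) (hq : 3 ≤ Fintype.card F) {x : PSp 2 F} (hT : IsT x)
    (hY : IsY x) : False := by
  obtain ⟨τ, x₁, hx₁, hτ⟩ := exists_tau h2 hq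
  rcases dichotomy (by norm_num) h2 τ with h | h
  · exact hτ (h x₁ hx₁)
  · obtain ⟨g, hg⟩ := IsY_single hY (h x₁ hx₁)
    apply hτ
    rw [hg]
    exact IsT_conj hT _

theorem isT_of_fix [Fintype F] {r : ℕ} [Fact r.Prime] [CharP F r] (hm : 2 ≤ m) (hs : m = 2 → 3 ≤ Fintype.card F)
    (γ : MulAut (PSp m F)) {x₀ : PSp m F} (hx₀ : IsT x₀) (h : IsT (γ x₀)) : ∀ x, IsT x → IsT (γ x) := by
  intro x hx
  by_cases h4 : m = 2 → r ≠ 2
  · exact isT_map hm h4 γ hx
  · push Not at h4
    obtain ⟨rfl, hr⟩ := h4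
    subst hr
    have h2 : (2 : F) = 0 := by exact_mod_cast CharP.cast_eq_zero F 2
    rcases dichotomy (by norm_num) h2 γ with h' | h'
    · exact h' x hx
    · exact (not_isT_isY h2 (hs rfl) h (h' x₀ hx₀)).elim

/-- In the exceptional case, an automorphism of odd order preserves the transvections. -/
theorem isT_of_odd [Fintype F] (h2 : (2 : F) = 0) (hq : 3 ≤ Fintype.card F) (x : MulAut (PSp 2 F))
    (hodd : Odd (orderOf x)) : ∀ y, IsT y → IsT (x y) := by
  classical
  obtain ⟨τ, x₁, hx₁, hτ⟩ := exists_tau h2 hq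
  have hτY : ∀ y, IsT y → IsY (τ y) := by
    rcases dichotomy (by norm_num) h2 τ with h | h
    · exact absurd (h x₁ hx₁) hτ
    · exact h
  have hYτ : ∀ y, IsY y → IsT (τ⁻¹ y) := by
    intro y hy
    obtain ⟨g, hg⟩ := IsY_single (hτY x₁ hx₁) hy
    have h1 : τ⁻¹ y = τ⁻¹ g * x₁ * (τ⁻¹ g)⁻¹ := by
      rw [hg, map_mul, map_mul, map_inv]
      congr 2
      exact MulEquiv.symm_apply_apply τ x₁
    rw [h1]
    exact IsT_conj hx₁ _
  let P : Subgroup (MulAut (PSp 2 F)) :=
    { carrier := {γ | ∀ y, IsT y → IsT (γ y)}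
      mul_mem' := fun {a b} ha hb y hy => ha _ (hb y hy)
      one_mem' := fun y hy => hy
      inv_mem' := fun {a} ha => inv_of_T a ha }
  have hP : ∀ γ : MulAut (PSp 2 F), γ ∉ P → τ⁻¹ * γ ∈ P := by
    intro γ hγ y hy
    rcases dichotomy (by norm_num) h2 γ with h | h
    · exact absurd h hγ
    · exact hYτ _ (h y hy)
  by_contra hcon
  have hxP : x ∉ P := hcon
  have hx2 : x * x ∈ P := by
    have h1 := hP x hxP
    have h3 := hP x⁻¹ (fun h => hxP (by simpa using P.inv_mem h))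
    have e : x * x = (τ⁻¹ * x⁻¹)⁻¹ * (τ⁻¹ * x) := by
      have : (τ⁻¹ * x⁻¹)⁻¹ = x * τ := by group
      rw [this]
      group
    rw [e]
    exact P.mul_mem (P.inv_mem h3) h1
  obtain ⟨k, hk⟩ := hodd
  have h1 : (x * x) ^ k * x = 1 := by
    rw [← sq, ← pow_mul, ← pow_succ, ← hk]
    exact pow_orderOf_eq_one x
  apply hxP
  have h3 : x = ((x * x) ^ k)⁻¹ := eq_inv_of_mul_eq_one_right h1
  rw [h3]
  exact P.inv_mem (P.pow_mem hx2 k)

theorem exists_semi_of_T [Fintype F] (hm : 2 ≤ m) (β : MulAut (PSp m F)) (h : ∀ x, IsT x → IsT (β x)) :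
    ∃ (g : ↥(GSp m F)) (τ : F ≃+* F), β = cA g * fA τ := by
  obtain ⟨x, hx⟩ := exists_Φ₀_of_T hm β h
  exact ⟨rep x.1, x.2, hx.symm⟩

theorem isStd_fA (σ : F ≃+* F) : IsStdFieldAutPSp σ (fA (m := m) σ) := by
  intro s s' h
  show mkS (fieldSp σ s) = mkS s'
  apply mkS_congr
  rw [coe_fieldSp, h]

theorem isClass_fA {σ : F ≃+* F} (hσ : σ ≠ RingEquiv.refl F) : IsFieldAutClassPSp (fA (m := m) σ) :=
  ⟨1, σ, hσ, by simpa using isStd_fA σ⟩

/-- An automorphism of prime order not dividing the characteristic which is not inner-diagonal is conjugate to a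
field automorphism under the inner-diagonal group. -/
theorem exists_conj_field [Fintype F] {r : ℕ} [Fact r.Prime] [CharP F r] (hm : 2 ≤ m)
    (hs : m = 2 → 3 ≤ Fintype.card F) {p : ℕ} [Fact p.Prime] (hpr : p ≠ r) (x : MulAut (PSp m F))
    (hord : orderOf x = p) (hnot : ¬ IsInnerDiagonalAutPSp x) :
    ∃ (σ : F ≃+* F) (h : MulAut (PSp m F)), σ ≠ RingEquiv.refl F ∧ orderOf σ = p ∧ h ∈ inndiagPSp m F ∧
      x = h * fA σ * h⁻¹ := by
  have hm1 : 1 ≤ m := by omega
  have hp : p.Prime := Fact.out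
  have hT : ∀ y, IsT y → IsT (x y) := by
    by_cases h4 : m = 2 → r ≠ 2
    · intro y hy
      exact isT_map hm h4 x hy
    · push Not at h4
      obtain ⟨rfl, hr⟩ := h4
      subst hr
      have h2 : (2 : F) = 0 := by exact_mod_cast CharP.cast_eq_zero F 2
      apply isT_of_odd h2 (hs rfl)
      rw [hord]
      exact hp.odd_of_ne_two hpr
  obtain ⟨g, σ, rfl⟩ := exists_semi_of_T hm x hT
  have hσ : σ ≠ RingEquiv.refl F := by
    rintro rfl
    apply hnot
    have e : fA (m := m) (RingEquiv.refl F) = 1 := fA_one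
    rw [e, mul_one]
    exact isInner g
  have hσp : σ ^ p = 1 := by
    have h1 := pow_orderOf_eq_one (cA g * fA σ : MulAut (PSp m F))
    rw [hord, pow_semi] at h1
    have h3 : cA (twS σ g p) * fA (σ ^ p) = cA (1 : ↥(GSp m F)) * fA (1 : F ≃+* F) := by
      rw [h1, cA_one, fA_one, one_mul]
    exact (semi_inj hm1 h3).1
  have hordσ : orderOf σ = p := orderOf_eq_prime hσp hσ
  have h5 := (main_conj hm (fA σ) (cA g) (isClass_fA hσ) (r := p)
    (by rw [orderOf_field hm1, hordσ]) (mem_inndiag_iff.2 ⟨g, rfl⟩)).1 hord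
  obtain ⟨h, hh, hx⟩ := h5
  exact ⟨σ, h, hσ, hordσ, hh, hx⟩

/-! ### The fixed points of a field automorphism -/

section fix

variable (m) (σ : F ≃+* F)

/-- Fixed matrices. -/
noncomputable def fixSp : Subgroup (Sp m F) := MonoidHom.eqLocus (fieldSp σ).toMonoidHom (MonoidHom.id _)

variable {m σ}

theorem mem_fixSp {s : Sp m F} : s ∈ fixSp m σ ↔ s.1.map σ = s.1 := by
  constructor
  · intro h
    have h1 : fieldSp σ s = s := h
    have h3 := congrArg Subtype.val h1
    rwa [coe_fieldSp] at h3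
  · intro h
    have h1 : fieldSp σ s = s := by
      apply Subtype.ext
      rw [coe_fieldSp, h]
    exact h1

variable (m σ)

/-- The image in `PSp` of the fixed matrices. -/
noncomputable def L₀ : Subgroup (PSp m F) := (fixSp m σ).map (QuotientGroup.mk' _)

/-- The fixed points in `PSp`. -/
noncomputable def C₀ : Subgroup (PSp m F) := MonoidHom.eqLocus (fA σ).toMonoidHom (MonoidHom.id _)

variable {m σ}

theorem mkS_mem_L₀ {s : Sp m F} (hs : s ∈ fixSp m σ) : mkS s ∈ L₀ m σ := ⟨s, hs, rfl⟩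

theorem mem_C₀ {x : PSp m F} : x ∈ C₀ m σ ↔ fA σ x = x := Iff.rfl

theorem fieldSp_negOne : fieldSp σ (negOne m F) = negOne m F := by
  apply Subtype.ext
  rw [coe_fieldSp]
  ext i j
  simp [negOne, Matrix.one_apply, apply_ite σ]

theorem negOne_comm (s : Sp m F) (hm : 1 ≤ m) : negOne m F * s = s * negOne m F := by
  have hc := (mem_center_symplecticGroup_iff hm (negOne m F)).2 (Or.inr rfl)
  rw [Subgroup.mem_center_iff] at hc
  exact (hc s).symm

theorem mkS_mem_C₀_iff (hm : 1 ≤ m) (s : Sp m F) :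
    mkS s ∈ C₀ m σ ↔ fieldSp σ s = s ∨ fieldSp σ s = negOne m F * s := by
  rw [mem_C₀, fA_mkS, eq_comm, mkS_eq_iff hm]

theorem L₀_le_C₀ (hm : 1 ≤ m) : L₀ m σ ≤ C₀ m σ := by
  rintro _ ⟨s, hs, rfl⟩
  exact (mkS_mem_C₀_iff hm s).2 (Or.inl hs)

theorem conj_mem_L₀ (hm : 1 ≤ m) {c l : PSp m F} (hc : c ∈ C₀ m σ) (hl : l ∈ L₀ m σ) : c * l * c⁻¹ ∈ L₀ m σ := by
  obtain ⟨u, rfl⟩ := mkS_surj c
  obtain ⟨s, hs, rfl⟩ := hl
  have hs' : fieldSp σ s = s := hs
  refine ⟨u * s * u⁻¹, ?_, rfl⟩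
  show fieldSp σ (u * s * u⁻¹) = u * s * u⁻¹
  rw [map_mul, map_mul, map_inv, hs']
  rcases (mkS_mem_C₀_iff hm u).1 hc with h | h
  · rw [h]
  · rw [h, _root_.mul_inv_rev, negOne_comm u hm]
    have hn : negOne m F * negOne m F = 1 := by
      apply Subtype.ext
      simp [negOne]
    have hinv : (negOne m F)⁻¹ = negOne m F := inv_eq_of_mul_eq_one_left hn
    rw [hinv]
    calc u * negOne m F * s * (u⁻¹ * negOne m F) = u * (negOne m F * s) * (u⁻¹ * negOne m F) := by group
      _ = u * (s * negOne m F) * (u⁻¹ * negOne m F) := by rw [negOne_comm s hm]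
      _ = u * s * (negOne m F * u⁻¹) * negOne m F := by group
      _ = u * s * (u⁻¹ * negOne m F) * negOne m F := by rw [negOne_comm u⁻¹ hm]
      _ = u * s * u⁻¹ * (negOne m F * negOne m F) := by group
      _ = u * s * u⁻¹ := by rw [hn, mul_one]

/-- Odd order: the fixed points are the images of the fixed matrices. -/
theorem mem_L₀_of_odd (hm : 1 ≤ m) {p : ℕ} (hσ : orderOf σ = p) (hp : Odd p) {c : PSp m F} (hc : c ∈ C₀ m σ) :
    c ∈ L₀ m σ := by
  obtain ⟨u, rfl⟩ := mkS_surj c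
  rcases (mkS_mem_C₀_iff hm u).1 hc with h | h
  · exact mkS_mem_L₀ h
  · have hn : negOne m F * negOne m F = 1 := by
      apply Subtype.ext
      simp [negOne]
    have hit : ∀ k : ℕ, u.1.map (σ ^ k : F ≃+* F) = ((negOne m F) ^ k * u).1 := by
      intro k
      induction k with
      | zero =>
        ext i j
        simp
      | succ k ih =>
        have e1 : u.1.map (σ ^ (k + 1) : F ≃+* F) = (u.1.map (σ ^ k : F ≃+* F)).map σ := by
          ext i j
          simp [pow_succ']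
        rw [e1, ih, ← coe_fieldSp, map_mul, map_pow, fieldSp_negOne, h, pow_succ]
        congr 1
        group
    have h1 := hit p
    rw [← hσ, pow_orderOf_eq_one, hσ] at h1
    have h3 : u.1.map (1 : F ≃+* F) = u.1 := by
      ext i j
      simp
    rw [h3] at h1
    obtain ⟨t, ht⟩ := hp
    have h4 : (negOne m F) ^ p = negOne m F := by
      rw [ht, pow_succ, pow_mul, sq, hn, one_pow, one_mul]
    rw [h4] at h1
    have h5 : fieldSp σ u = u := by
      rw [h]
      exact (Subtype.ext h1).symm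
    exact mkS_mem_L₀ h5

/-- The element acting by `-1` on a hyperbolic plane. -/
noncomputable def signMat (i₀ : Fin m) : Matrix (Fin m ⊕ Fin m) (Fin m ⊕ Fin m) F :=
  fromBlocks (Matrix.diagonal fun i => if i = i₀ then -1 else 1) 0 0 (Matrix.diagonal fun i => if i = i₀ then -1 else 1)

theorem signDiag_sq (i₀ : Fin m) : (Matrix.diagonal fun i => if i = i₀ then (-1 : F) else 1) * (Matrix.diagonal fun i => if i = i₀ then (-1 : F) else 1) = 1 := by
  rw [Matrix.diagonal_mul_diagonal]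
  have : ∀ i : Fin m, (if i = i₀ then (-1 : F) else 1) * (if i = i₀ then (-1 : F) else 1) = 1 := by
    intro i
    by_cases h : i = i₀ <;> simp [h]
  simp_rw [this]
  exact Matrix.diagonal_one

theorem signMat_sq (i₀ : Fin m) : signMat (F := F) i₀ * signMat i₀ = 1 := by
  rw [signMat, fromBlocks_multiply]
  have := signDiag_sq (F := F) i₀
  simp only [Matrix.mul_zero, Matrix.zero_mul, add_zero, zero_add, this, fromBlocks_one]

theorem signMat_mem (i₀ : Fin m) : signMat (F := F) i₀ ∈ Matrix.symplecticGroup (Fin m) F := by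
  have h1 := signDiag_sq (F := F) i₀
  have h3 : (Matrix.diagonal fun i => if i = i₀ then (-1 : F) else 1)ᵀ = Matrix.diagonal fun i => if i = i₀ then (-1 : F) else 1 :=
    Matrix.diagonal_transpose _
  rw [SymplecticGroup.mem_iff, signMat, Matrix.J]
  generalize (Matrix.diagonal fun i => if i = i₀ then (-1 : F) else 1) = D at h1 h3
  rw [fromBlocks_transpose, fromBlocks_multiply, fromBlocks_multiply, h3]
  simp only [Matrix.mul_zero, Matrix.zero_mul, add_zero, zero_add, Matrix.mul_one, Matrix.mul_neg, Matrix.neg_mul, h1,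
    Matrix.transpose_zero, neg_zero]

/-- The sign element. -/
noncomputable def signEl (i₀ : Fin m) : Sp m F := ⟨signMat i₀, signMat_mem i₀⟩

theorem signEl_fix (i₀ : Fin m) : signEl i₀ ∈ fixSp m σ := by
  rw [mem_fixSp]
  ext i j
  rcases i with i | i <;> rcases j with j | j <;>
    simp [signEl, signMat, Matrix.diagonal_apply, apply_ite σ]

/-- `L₀` has even order in odd characteristic. -/
theorem two_dvd [Finite F] (hm : 2 ≤ m) (h2 : (2 : F) ≠ 0) : 2 ∣ Nat.card (L₀ m σ) := by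
  have hm1 : 1 ≤ m := by omega
  let i₀ : Fin m := ⟨0, by omega⟩
  let i₁ : Fin m := ⟨1, by omega⟩
  have h01 : i₁ ≠ i₀ := by simp [i₀, i₁, Fin.ext_iff]
  have hne : mkS (signEl (F := F) i₀) ≠ 1 := by
    intro h
    have h1 : mkS (signEl (F := F) i₀) = mkS 1 := h
    rcases (mkS_eq_iff hm1 _ _).1 h1 with h3 | h3
    · have h4 := congrFun (congrFun (congrArg Subtype.val h3) (Sum.inl i₀)) (Sum.inl i₀)
      simp [signEl, signMat] at h4
      apply h2
      linear_combination h4
    · have h4 := congrFun (congrFun (congrArg Subtype.val h3) (Sum.inl i₁)) (Sum.inl i₁)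
      simp [signEl, signMat, negOne, h01] at h4
      apply h2
      linear_combination h4
  have hsq : (mkS (signEl (F := F) i₀)) ^ 2 = 1 := by
    rw [sq, ← mkS_mul]
    have : signEl (F := F) i₀ * signEl i₀ = 1 := Subtype.ext (signMat_sq i₀)
    rw [this]
    rfl
  have hord : orderOf (mkS (signEl (F := F) i₀)) = 2 := by
    have : Fact (Nat.Prime 2) := ⟨Nat.prime_two⟩
    exact orderOf_eq_prime hsq hne
  rw [← hord]
  exact Subgroup.orderOf_dvd_natCard _ (mkS_mem_L₀ (signEl_fix i₀))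

/-- A prime dividing the order of the fixed points divides the order of `L₀`. -/
theorem dvd_L₀ [Finite F] (hm : 2 ≤ m) {p : ℕ} [Fact p.Prime] (h2 : p = 2 → (2 : F) ≠ 0) (hσ : orderOf σ = p)
    (h : p ∣ Nat.card (C₀ m σ)) : p ∣ Nat.card (L₀ m σ) := by
  have hp : p.Prime := Fact.out
  by_cases hp2 : p = 2
  · subst hp2
    exact two_dvd hm (h2 rfl)
  · obtain ⟨y, hy⟩ := exists_prime_orderOf_dvd_card' p h
    have h1 : y.1 ∈ L₀ m σ := mem_L₀_of_odd (by omega) hσ (hp.odd_of_ne_two hp2) y.2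
    have h3 : orderOf y.1 = p := by
      rw [Subgroup.orderOf_coe, hy]
    rw [← h3]
    exact Subgroup.orderOf_dvd_natCard _ h1

end fix

end Cfsg.Agent.Lib.LocalBal.SpField
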