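/-
The symplectic group over the fixed field of a field automorphism, and the automorphisms centralising it.
-/
import Mathlib
import Cfsg.Agent.Lib.LocalBal.SpField

set_option autoImplicit false

namespace Cfsg.Agent.Lib.LocalBal.SpCent

open Matrix Cfsg
open Cfsg.Agent.Lib.Classical.SympForm Cfsg.Agent.Lib.Classical.SympSimple
open Cfsg.Agent.Lib.KS71.PSpCore Cfsg.Agent.Lib.KS71.PSpGroup Cfsg.Agent.Lib.KS71.PSpTInv
open Cfsg.Agent.Lib.KS71.PSpCard Cfsg.Agent.Lib.KS71.PSpClass
open Cfsg.Agent.Lib.KS71.PSpTwist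
open Cfsg.Agent.Lib.LocalBal.SpField

variable {F : Type*} [Field F] {m : ℕ}

/-- The inclusion of the symplectic group of a subfield. -/
noncomputable def jSp (S : Subfield F) : Sp m S →* Sp m F where
  toFun s := ⟨s.1.map S.subtype, by
    rw [SymplecticGroup.mem_iff]
    have h := SymplecticGroup.mem_iff.1 s.2
    have h1 := congrArg (fun X => X.map S.subtype) h
    beta_reduce at h1
    rw [Matrix.map_mul, Matrix.map_mul, J_map] at h1
    exact h1⟩
  map_one' := by
    apply Subtype.ext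
    refine Matrix.ext fun i j => ?_
    simp [Matrix.one_apply, apply_ite]
  map_mul' s t := by
    apply Subtype.ext
    exact Matrix.map_mul (f := S.subtype)

theorem coe_jSp (S : Subfield F) (s : Sp m S) : (jSp S s).1 = s.1.map S.subtype := rfl

/-- The map of `Sp` of a subfield to `PSp`. -/
noncomputable def piS (S : Subfield F) : Sp m S →* PSp m F := (QuotientGroup.mk' _).comp (jSp S)

theorem piS_apply (S : Subfield F) (s : Sp m S) : piS S s = mkS (jSp S s) := rfl

theorem piS_center (hm : 1 ≤ m) (S : Subfield F) (s : Sp m S) (hs : s ∈ Subgroup.center (Sp m S)) : piS S s = 1 := by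
  rcases (mem_center_symplecticGroup_iff hm s).1 hs with rfl | rfl
  · exact map_one _
  · rw [piS_apply]
    apply (QuotientGroup.eq_one_iff _).2
    apply (mem_center_symplecticGroup_iff hm _).2
    right
    apply Subtype.ext
    refine Matrix.ext fun i j => ?_
    simp [coe_jSp, negOne, Matrix.one_apply, apply_ite]

theorem range_piS {σ : F ≃+* F} {S : Subfield F} (hS : ∀ x, x ∈ S ↔ σ x = x) :
    (piS (m := m) S).range = L₀ m σ := by
  ext y
  constructor
  · rintro ⟨s, rfl⟩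
    refine mkS_mem_L₀ ?_
    rw [mem_fixSp, coe_jSp]
    refine Matrix.ext fun i j => ?_
    exact (hS _).1 (s.1 i j).2
  · rintro ⟨t, ht, rfl⟩
    have ht' : t.1.map σ = t.1 := mem_fixSp.1 ht
    have hent : ∀ i j, t.1 i j ∈ S := by
      intro i j
      exact (hS _).2 (congrFun (congrFun ht' i) j)
    let s₀ : Matrix (Fin m ⊕ Fin m) (Fin m ⊕ Fin m) S := Matrix.of fun i j => ⟨t.1 i j, hent i j⟩
    have hmap : s₀.map S.subtype = t.1 := by
      refine Matrix.ext fun i j => ?_
      rfl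
    have hs₀ : s₀ ∈ Matrix.symplecticGroup (Fin m) S := by
      rw [SymplecticGroup.mem_iff]
      apply Matrix.map_injective (f := S.subtype) Subtype.val_injective
      beta_reduce
      have h := SymplecticGroup.mem_iff.1 t.2
      rw [Matrix.map_mul, Matrix.map_mul, J_map]
      have h3 : (s₀ᵀ).map S.subtype = t.1ᵀ := by
        rw [← hmap]
        rfl
      rw [h3, hmap]
      exact h
    refine ⟨⟨s₀, hs₀⟩, ?_⟩
    rw [piS_apply]
    apply mkS_congr
    rw [coe_jSp]
    exact hmap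

/-- Subgroups of `L₀` normalized by `L₀` are trivial or have order divisible by `p`. -/
theorem L₀_normal [Finite F] {r : ℕ} [Fact r.Prime] [CharP F r] (hm : 1 ≤ m) {σ : F ≃+* F} {p : ℕ} [Fact p.Prime]
    (hpr : p ≠ r) (hdvd : p ∣ Nat.card (L₀ m σ)) (M : Subgroup (PSp m F)) (hle : M ≤ L₀ m σ)
    (hn : ∀ l ∈ L₀ m σ, ∀ y ∈ M, l * y * l⁻¹ ∈ M) (hcop : ¬ p ∣ Nat.card M) : M = ⊥ := by
  let S : Subfield F := (σ : F →+* F).eqLocusField (RingHom.id F)
  have hS : ∀ x : F, x ∈ S ↔ σ x = x := fun x => Iff.rfl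
  have hcS : CharP S r := (RingHom.charP_iff S.subtype Subtype.val_injective r).2 inferInstance
  have hR := range_piS (m := m) hS
  refine SpNormal.eq_bot_of_normal (F := S) (r := r) hm (piS (m := m) S) (piS_center hm S) hpr ?_ M ?_ ?_ hcop
  · rw [hR]
    exact hdvd
  · rw [hR]
    exact hle
  · intro s y hy
    refine hn _ ?_ y hy
    rw [← hR]
    exact ⟨s, rfl⟩

/-- Transvections with fixed vectors are fixed. -/
theorem ts_mem_fixSp {σ : F ≃+* F} {w : Fin m ⊕ Fin m → F} (hw : vσ σ w = w) : ts w (1 : F) ∈ fixSp m σ := by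
  rw [mem_fixSp]
  apply Matrix.ext_iff_mulVec.2
  intro x
  have hx : x = vσ σ (vσ σ.symm x) := (vσ_symm σ x).symm
  rw [hx, map_mulVec_vσ, ts_mulVec, ts_mulVec, vσ_add, vσ_smul, map_mul, map_one, hw]
  conv_rhs => rw [← hw]
  rw [form_vσ, hw]

/-- If every fixed vector has a twist parallel to its image, the matrix is scalar and the twist is trivial on
the fixed field. -/
theorem rigid_fix {ι : Type*} [Fintype ι] [DecidableEq ι] {i₀ i₁ : ι} (h01 : i₀ ≠ i₁) (M : Matrix ι ι F)
    (hM : ∀ w : ι → F, w ≠ 0 → M *ᵥ w ≠ 0) (σ u : F ≃+* F)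
    (h : ∀ w : ι → F, w ≠ 0 → (∀ i, σ (w i) = w i) → ∃ a : F, M *ᵥ (fun i => u (w i)) = a • w) :
    (∀ x, σ x = x → u x = x) ∧ ∃ c : F, c ≠ 0 ∧ M = c • 1 := by
  classical
  have hsingle : ∀ i : ι, (Pi.single i 1 : ι → F) ≠ 0 := by
    intro i hi
    have := congrFun hi i
    simp at this
  have hsfix : ∀ (i j : ι), σ ((Pi.single i 1 : ι → F) j) = (Pi.single i 1 : ι → F) j := by
    intro i j
    by_cases hj : j = i
    · subst hj
      simp
    · simp [hj]
  have hmap : ∀ (i : ι), (fun j => u ((Pi.single i 1 : ι → F) j)) = Pi.single i 1 := by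
    intro i
    funext j
    by_cases hj : j = i
    · subst hj
      simp
    · simp [hj]
  have h1 : ∀ i : ι, ∃ c : F, c ≠ 0 ∧ M *ᵥ (Pi.single i 1) = c • Pi.single i 1 := by
    intro i
    obtain ⟨a, ha⟩ := h _ (hsingle i) (hsfix i)
    rw [hmap] at ha
    refine ⟨a, ?_, ha⟩
    rintro rfl
    rw [zero_smul] at ha
    exact hM _ (hsingle i) ha
  choose c hc0 hc using h1
  have hent : ∀ k i : ι, M k i = if k = i then c i else 0 := by
    intro k i
    have := congrFun (hc i) k
    rw [Matrix.mulVec_single_one, Matrix.col_apply] at this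
    rw [this]
    by_cases hk : k = i
    · subst hk; simp
    · simp [hk]
  have hmul : ∀ (w : ι → F) (k : ι), (M *ᵥ w) k = c k * w k := by
    intro w k
    rw [Matrix.mulVec, dotProduct, Finset.sum_eq_single k]
    · rw [hent]
      simp
    · intro j _ hj
      rw [hent]
      simp [Ne.symm hj]
    · simp
  have heq : ∀ i j : ι, c i = c j := by
    intro i j
    by_cases hij : i = j
    · rw [hij]
    have hne : (Pi.single i 1 + Pi.single j 1 : ι → F) ≠ 0 := by
      intro h0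
      have := congrFun h0 i
      simp [hij] at this
    have hfx : ∀ k, σ ((Pi.single i 1 + Pi.single j 1 : ι → F) k) = (Pi.single i 1 + Pi.single j 1 : ι → F) k := by
      intro k
      simp only [Pi.add_apply, map_add, hsfix]
    obtain ⟨a, ha⟩ := h _ hne hfx
    have hi := congrFun ha i
    have hj := congrFun ha j
    simp only [Pi.smul_apply, smul_eq_mul, hmul, Pi.add_apply, map_add] at hi hj
    simp [hij, Ne.symm hij] at hi hj
    rw [hi, hj]
  constructor
  · intro x hx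
    have hne : (Pi.single i₀ 1 + Pi.single i₁ x : ι → F) ≠ 0 := by
      intro h0
      have := congrFun h0 i₀
      simp [h01] at this
    have hfx : ∀ k, σ ((Pi.single i₀ 1 + Pi.single i₁ x : ι → F) k) = (Pi.single i₀ 1 + Pi.single i₁ x : ι → F) k := by
      intro k
      simp only [Pi.add_apply, map_add, hsfix]
      congr 1
      by_cases hk : k = i₁
      · subst hk
        simp [hx]
      · simp [hk]
    obtain ⟨a, ha⟩ := h _ hne hfx
    have hi := congrFun ha i₀
    have hj := congrFun ha i₁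
    simp only [Pi.smul_apply, smul_eq_mul, hmul, Pi.add_apply, map_add] at hi hj
    simp [h01, Ne.symm h01] at hi hj
    rw [heq i₁ i₀, hi] at hj
    have ha0 : a ≠ 0 := by
      rw [← hi]
      exact hc0 i₀
    exact mul_left_cancel₀ ha0 hj
  · refine ⟨c i₀, hc0 i₀, Matrix.ext fun k i => ?_⟩
    rw [hent]
    by_cases hk : k = i
    · subst hk
      simp [heq k i₀]
    · simp [hk]

/-- An automorphism centralising the symplectic group of the fixed field is a field automorphism which is trivial on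
the fixed field. -/
theorem cent_of_fix [Fintype F] {r : ℕ} [Fact r.Prime] [CharP F r] (hm : 2 ≤ m) (hs : m = 2 → 3 ≤ Fintype.card F)
    (σ : F ≃+* F) (α : MulAut (PSp m F)) (hα : ∀ l ∈ L₀ m σ, α l = l) :
    ∃ τ : F ≃+* F, α = fA τ ∧ ∀ x, σ x = x → τ x = x := by
  classical
  have hm1 : 1 ≤ m := by omega
  let i₀ : Fin m ⊕ Fin m := Sum.inl ⟨0, by omega⟩
  let i₁ : Fin m ⊕ Fin m := Sum.inl ⟨1, by omega⟩
  have h01 : i₀ ≠ i₁ := by simp [i₀, i₁]
  have he0 : (Pi.single i₀ 1 : Fin m ⊕ Fin m → F) ≠ 0 := by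
    intro hi
    have := congrFun hi i₀
    simp at this
  have hfix0 : vσ σ (Pi.single i₀ 1 : Fin m ⊕ Fin m → F) = Pi.single i₀ 1 := by
    funext j
    by_cases hj : j = i₀
    · subst hj
      simp [vσ]
    · simp [vσ, hj]
  let d₀ : D m F := D.mk (Pi.single i₀ 1) 1 he0 one_ne_zero
  have hmemd : el d₀ ∈ L₀ m σ := mkS_mem_L₀ (ts_mem_fixSp hfix0)
  have hT : ∀ y, IsT y → IsT (α y) :=
    isT_of_fix hm hs α (x₀ := el d₀) ⟨d₀, rfl⟩ (by rw [hα _ hmemd]; exact ⟨d₀, rfl⟩)
  obtain ⟨g, τ, rfl⟩ := exists_semi_of_T hm α hT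
  have hM : ∀ w : Fin m ⊕ Fin m → F, w ≠ 0 → (g.1 : Matrix (Fin m ⊕ Fin m) (Fin m ⊕ Fin m) F) *ᵥ w ≠ 0 := by
    intro w hw h0
    apply hw
    have h3 : ((g.1⁻¹ : GL _ F) : Matrix (Fin m ⊕ Fin m) (Fin m ⊕ Fin m) F) *ᵥ
        ((g.1 : Matrix (Fin m ⊕ Fin m) (Fin m ⊕ Fin m) F) *ᵥ w) = 0 := by
      rw [h0, Matrix.mulVec_zero]
    rwa [Matrix.mulVec_mulVec, gl_inv_mul, Matrix.one_mulVec] at h3
  have key : ∀ w : Fin m ⊕ Fin m → F, w ≠ 0 → (∀ i, σ (w i) = w i) →
      ∃ a : F, (g.1 : Matrix (Fin m ⊕ Fin m) (Fin m ⊕ Fin m) F) *ᵥ (fun i => τ (w i)) = a • w := by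
    intro w hw hfix
    let d : D m F := D.mk w 1 hw one_ne_zero
    obtain ⟨d', h1, h2⟩ := el_semi g τ d
    have h3 : el d ∈ L₀ m σ := mkS_mem_L₀ (ts_mem_fixSp (funext hfix))
    rw [hα _ h3] at h1
    obtain ⟨a, ha⟩ := el_eq_imp h1
    refine ⟨a, ?_⟩
    have e : d'.v = a • d.v := ha
    rw [h2] at e
    exact e
  obtain ⟨hτ, c, hc0, hc⟩ := rigid_fix h01 _ hM σ τ key
  refine ⟨τ, ?_, hτ⟩
  have hg : g = scS (Units.mk0 c hc0) := by
    apply Subtype.ext
    apply Units.ext
    rw [hc]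
    show _ = ((sc (Units.mk0 c hc0) : GL (Fin m ⊕ Fin m) F) : Matrix (Fin m ⊕ Fin m) (Fin m ⊕ Fin m) F)
    rw [coe_sc]
    rfl
  rw [hg, cA_scS, one_mul]

/-- A field automorphism of order prime to `p` fixing the fixed field of an automorphism of order `p` is trivial. -/
theorem eq_one_of_fix [Fintype F] {r f : ℕ} [Fact r.Prime] (hF : Fintype.card F = r ^ f) (hf : 1 ≤ f) {p : ℕ}
    (σ τ : F ≃+* F) (hσ : orderOf σ = p) (hτ : (orderOf τ).Coprime p) (h : ∀ x, σ x = x → τ x = x) : τ = 1 := by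
  classical
  have hr : r.Prime := Fact.out
  obtain ⟨S₁, hS₁, hc₁⟩ := KS71.PSLCent.exists_fix hF σ
  obtain ⟨S₂, hS₂, hc₂⟩ := KS71.PSLCent.exists_fix hF (σ * τ)
  have hle : S₁ ≤ S₂ := by
    intro x hx
    rw [hS₂]
    have h1 := (hS₁ x).1 hx
    show σ (τ x) = x
    rw [h x h1, h1]
  have hfin : Finite S₂ := inferInstance
  have hcard : Nat.card S₁ ≤ Nat.card S₂ := Nat.card_le_card_of_injective (Subfield.inclusion hle) (Subfield.inclusion hle).injective
  rw [hc₁, hc₂] at hcard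
  have hexp : f / orderOf σ ≤ f / orderOf (σ * τ) := (Nat.pow_le_pow_iff_right hr.one_lt).1 hcard
  have hcomm : Commute σ τ := KS71.GalFin.comm σ τ
  have hcop : (orderOf σ).Coprime (orderOf τ) := by
    rw [hσ]
    exact hτ.symm
  have hmulo : orderOf (σ * τ) = orderOf σ * orderOf τ := hcomm.orderOf_mul_eq_mul_orderOf_of_coprime hcop
  obtain ⟨t, ht⟩ := KS71.PSLCent.order_dvd hF hf (σ * τ)
  rw [hmulo] at ht hexp
  have hpos : 0 < orderOf σ := orderOf_pos σ
  have hpos' : 0 < orderOf τ := orderOf_pos τ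
  have e1 : f / (orderOf σ * orderOf τ) = t := by
    rw [ht]
    exact Nat.mul_div_cancel_left _ (Nat.mul_pos hpos hpos')
  have e2 : f / orderOf σ = orderOf τ * t := by
    rw [ht, mul_assoc]
    exact Nat.mul_div_cancel_left _ hpos
  rw [e1, e2] at hexp
  have ht0 : 0 < t := by
    rcases Nat.eq_zero_or_pos t with h0 | h0
    · subst h0
      omega
    · exact h0
  have ho : orderOf τ ≤ 1 := by
    by_contra hcon
    push Not at hcon
    have : 2 * t ≤ orderOf τ * t := Nat.mul_le_mul_right t hcon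
    omega
  have ho1 : orderOf τ = 1 := by omega
  exact orderOf_eq_one_iff.1 ho1

end Cfsg.Agent.Lib.LocalBal.SpCent
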