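/-
The group-theoretic inputs for the local balance failure in `PΩ`.
-/
import Mathlib
import Cfsg.Agent.Lib.LocalBal.OmFix
import Cfsg.Agent.Lib.LocalBal.SpCent

set_option autoImplicit false
set_option linter.unusedSectionVars false
set_option linter.unusedVariables false

namespace Cfsg.Agent.Lib.LocalBal.OmMain

open Module QuadraticMap Matrix Cfsg.Agent.Lib.Witt.Quadratic Cfsg.Agent.Lib.Orth.Refl
open Cfsg.Agent.Lib.Orth.Gen Cfsg.Agent.Lib.OrthRefl.Eichler Cfsg.Agent.Lib.Classical.QuadEichler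
open Cfsg.Agent.Lib.Classical.QuadEichSimple Cfsg.Agent.Lib.Classical.OmegaHP Cfsg.Agent.Lib.Classical.OmegaLocal
open Cfsg.Agent.Lib.Classical.OmegaRoot Cfsg.Agent.Lib.Classical.OmegaSemi Cfsg.Agent.Lib.Classical.OmegaConj
open Cfsg.Agent.Lib.Classical.OmegaBar Cfsg.Agent.Lib.Classical.OmegaAut Cfsg.Agent.Lib.Classical.OmegaCount
open Cfsg.Agent.Lib.Orth.Forms Cfsg.Agent.Lib.Classical.BinaryForms Cfsg.Agent.Lib.Classical.QuadEichBridge
open Cfsg.Agent.Lib.Classical.OmegaForms Cfsg.Agent.Lib.Classical.OmegaOut Cfsg.Agent.Lib.Orth.Bridge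
open Cfsg.Agent.Lib.Classical.MatrixBridge Cfsg.Agent.Lib.Orth.Closure
open Cfsg.Agent.Lib.Classical.OmegaPGO Cfsg.Agent.Lib.Classical.OmegaPGO2 Cfsg.Agent.Lib.Classical.OmegaFrob
open Cfsg.Agent.Lib.Classical.OmegaOutOdd Cfsg.Agent.Lib.Classical.OmegaDesc
open Cfsg.Agent.Lib.LocalBal.OmEmb Cfsg.Agent.Lib.LocalBal.OmFix Cfsg.Agent.Lib.LocalBal.Core
open scoped commutatorElement

universe u

variable {F : Type u} [Field F] [Fintype F] {ι : Type} [Fintype ι] [DecidableEq ι]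
variable {σ : F ≃+* F} {Q : QuadraticForm F (ι → F)} (hσ : ∀ x : ι → F, Q (fun i => σ (x i)) = σ (Q x))
variable (hQ : (polarBilin Q).Nondegenerate) (hn : 5 ≤ Fintype.card ι)
variable (r : ℕ) [hr : Fact r.Prime] [hc : CharP F r]

/-- The field automorphism. -/
noncomputable abbrev XX : MulAut (Cfsg.POmega F ⇑Q) := conjS hQ hn (coordS σ hσ)

theorem fix_LL (l : Cfsg.POmega F ⇑Q) (hl : l ∈ LL hσ) : XX hσ hQ hn l = l := by
  obtain ⟨t, rfl⟩ := hl
  exact isField_conjS_coord hQ hn σ hσ (jOm hσ t) (jOm hσ t) (jGL_fixed _).symm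

/-- The matrix of a fixed class, when the centre is trivial. -/
theorem fixed_matrix (hZ : Subgroup.center (Cfsg.Omega F ⇑Q) = ⊥) (u : Cfsg.Omega F ⇑Q)
    (h : XX hσ hQ hn (QuotientGroup.mk u) = QuotientGroup.mk u) :
    (((u.1 : Cfsg.isometryGroup F ⇑Q) : GL ι F).val).map σ = ((u.1 : Cfsg.isometryGroup F ⇑Q) : GL ι F).val := by
  obtain ⟨s', hs'⟩ := exists_conj_mem hQ hn (coordS σ hσ) u
  have h1 : XX hσ hQ hn (QuotientGroup.mk u) = QuotientGroup.mk s' := conjS_mk hQ hn _ u s' hs'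
  rw [h] at h1
  have h3 : u⁻¹ * s' ∈ Subgroup.center (Cfsg.Omega F ⇑Q) := QuotientGroup.eq.1 h1
  rw [hZ] at h3
  have h4 : s' = u := by
    have h5 : u⁻¹ * s' = 1 := h3
    exact (inv_mul_eq_one.1 h5).symm
  subst h4
  apply Cfsg.Agent.Lib.Orth.Words.mat_eq_of_mulVec
  intro y
  obtain ⟨z, rfl⟩ := (coordEquiv (ι := ι) σ).surjective y
  have h6 := hs' z
  rw [coordS_apply, coordS_apply] at h6
  have e : (coordEquiv (ι := ι) σ z) = fun i => σ (z i) := rfl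
  rw [e, map_mulVec_coord, h6]

theorem norm_LL (hZ : Subgroup.center (Cfsg.Omega F ⇑Q) = ⊥) (c : Cfsg.POmega F ⇑Q) (hc' : XX hσ hQ hn c = c) :
    ∀ l ∈ LL hσ, c * l * c⁻¹ ∈ LL hσ := by
  obtain ⟨u, rfl⟩ := QuotientGroup.mk_surjective c
  rintro _ ⟨t, rfl⟩
  obtain ⟨u₀, hu₀⟩ := exists_lift_iso hσ u.1 (fixed_matrix hσ hQ hn hZ u hc')
  let t' : Cfsg.Omega (Fx σ) ⇑(descend Q hσ) :=
    ⟨u₀ * t.1 * u₀⁻¹, (inferInstance : (commutator (Cfsg.isometryGroup (Fx σ) ⇑(descend Q hσ))).Normal).conj_mem t.1 t.2 u₀⟩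
  refine ⟨t', ?_⟩
  rw [piO_apply, piO_apply]
  have h1 : jOm hσ t' = u * jOm hσ t * u⁻¹ := by
    apply Subtype.ext
    show jIso hσ (u₀ * t.1 * u₀⁻¹) = u.1 * jIso hσ t.1 * u.1⁻¹
    rw [map_mul, map_mul, map_inv, hu₀]
  rw [h1]
  rfl

omit hc hr in
include hQ in
theorem perfect_omega (hn7 : 7 ≤ Fintype.card ι) : commutator (Cfsg.Omega F ⇑Q) = ⊤ := by
  have hn5 : 5 ≤ Fintype.card ι := by omega
  have h1 := commutator_eGroup_eq_top hQ (by rw [finrank_eq]; exact hn7)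
  rw [eq_top_iff]
  intro g _
  apply (mem_commutator_equiv (omegaEquiv Q hQ hn5) g).2
  rw [h1]
  trivial

include hQ in
theorem piO_center (hn7 : 7 ≤ Fintype.card ι) (z : Cfsg.Omega (Fx σ) ⇑(descend Q hσ))
    (hz : z ∈ Subgroup.center (Cfsg.Omega (Fx σ) ⇑(descend Q hσ))) : piO hσ z = 1 := by
  have hQ₀ := descend_nondeg Q hσ hQ
  have hn5 : 5 ≤ Fintype.card ι := by omega
  have hz' : omegaEquiv (descend Q hσ) hQ₀ hn5 z ∈ Subgroup.center (eGroup (descend Q hσ)) := by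
    rw [← Cfsg.Agent.Lib.Classical.SympSimple.map_center_mulEquiv (omegaEquiv (descend Q hσ) hQ₀ hn5)]
    exact ⟨z, hz, rfl⟩
  obtain ⟨c, hc'⟩ := scalar_of_mem_center hQ₀ (by rw [finrank_eq]; exact hn5) hz'
  apply (QuotientGroup.eq_one_iff _).2
  rw [Subgroup.mem_center_iff]
  intro g
  have hmat : (jGL σ z.1.1).val = (c : F) • 1 := by
    apply Matrix.toLin'.injective
    apply ext_incl (σ := σ)
    intro y
    rw [Matrix.toLin'_apply, jGL_mulVec, map_smul, Matrix.toLin'_one]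
    have h1 := omegaEquiv_apply (descend Q hσ) hQ₀ hn5 z y
    rw [hc'] at h1
    rw [← h1]
    rfl
  apply Subtype.ext
  apply Subtype.ext
  apply Units.ext
  show g.1.1.val * (jGL σ z.1.1).val = (jGL σ z.1.1).val * g.1.1.val
  rw [hmat, Matrix.mul_smul, Matrix.smul_mul, Matrix.mul_one, Matrix.one_mul]

include hQ in
theorem dich_LL (hn7 : 7 ≤ Fintype.card ι) {p : ℕ} (hdvd : p ∣ Nat.card (LL hσ)) (M : Subgroup (Cfsg.POmega F ⇑Q))
    (hle : M ≤ LL hσ) (hn' : ∀ l ∈ LL hσ, ∀ y ∈ M, l * y * l⁻¹ ∈ M) (hcop : ¬ p ∣ Nat.card M) : M = ⊥ := by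
  have hQ₀ := descend_nondeg Q hσ hQ
  refine dichotomy_abstract (isSimpleGroup_POmega (descend Q hσ) hQ₀ hn7) (perfect_omega hQ₀ hn7) (piO hσ)
    (piO_center hσ hQ hn7) M hle (fun g y hy => hn' _ ⟨g, rfl⟩ y hy) ?_
  intro h
  rw [h] at hcop
  exact hcop hdvd

include hQ hn r in
theorem eAt_pi_ne {a b : ι → F} {E : eGroup Q} (hE : EAt Q a b E.1) (ha0 : a ≠ 0) (hb : Q b ≠ 0) : pi Q E ≠ 1 := by
  have hn' : 5 ≤ finrank F (ι → F) := by rw [finrank_eq]; exact hn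
  intro h1
  have h2 : E ∈ Subgroup.center (eGroup Q) := (QuotientGroup.eq_one_iff _).1 h1
  have h3 : E ^ (r ^ 1) = 1 := by
    rw [pow_one]
    exact Subtype.ext (hE.pow_char r)
  have h4 := center_pow hQ r hn' h2 1 h3
  obtain ⟨x, hx⟩ := exists_polar_single hQ ha0 1
  have h5 := hE.apply' x
  rw [h4, hx] at h5
  have h6 : b = (polar Q x b - Q b * 1) • a := by
    have h7 : x = x + polar Q x b • a - (1 : F) • b - (Q b * 1) • a := h5
    linear_combination (norm := module) h7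
  apply hb
  rw [h6, QuadraticMap.map_smul, hE.Qa, smul_zero]

include hQ hn r in
theorem exists_piO_ne (hn7 : 7 ≤ Fintype.card ι) : ∃ t, piO hσ t ≠ 1 := by
  classical
  have hQ₀ := descend_nondeg Q hσ hQ
  have hfin₀ : finrank (Fx σ) (ι → Fx σ) = Fintype.card ι := finrank_eq
  obtain ⟨a₀, ha0, ha, -⟩ := exists_singular_perp (Q := descend Q hσ) (k := 0) (by rw [hfin₀]; omega) ![]
  obtain ⟨b₀, hb₀, hperp⟩ := exists_nonsingular_perp (Q := descend Q hσ) (k := 1) hQ₀ (by rw [hfin₀]; omega) ![a₀]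
  have hab : polar (descend Q hσ) a₀ b₀ = 0 := by simpa using hperp 0
  obtain ⟨t₀, hE⟩ := rat_root hσ hQ hn ha hab
  refine ⟨t₀, fun h => ?_⟩
  have h1 : pi Q (omegaEquiv Q hQ hn (jOm hσ t₀)) = 1 := by
    have h3 := congrArg (pOmegaEquiv Q hQ hn) h
    rw [map_one] at h3
    exact h3
  refine eAt_pi_ne hQ hn r hE ?_ ?_ h1
  · intro h0
    apply ha0
    funext i
    exact Subtype.ext (congrFun h0 i)
  · rw [← descend_coe Q hσ]
    intro h0
    exact hb₀ (Subtype.ext h0)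

theorem conjS_ofE (u : Cfsg.Omega F ⇑Q) :
    conjS hQ hn (ofE (omegaEquiv Q hQ hn u)) = MulAut.conj (QuotientGroup.mk u : Cfsg.POmega F ⇑Q) := by
  ext x
  apply (pOmegaEquiv Q hQ hn).injective
  rw [pOmegaEquiv_conjS, phi_ofE, MulAut.conj_apply, MulAut.conj_apply, map_mul, map_mul, map_inv]
  rfl

include hQ in
omit hr hc in
theorem conj_injective (hn7 : 7 ≤ Fintype.card ι) :
    Function.Injective (MulAut.conj : Cfsg.POmega F ⇑Q →* MulAut (Cfsg.POmega F ⇑Q)) := by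
  rw [injective_iff_map_eq_one]
  intro k hk
  have h1 : k ∈ Subgroup.center (Cfsg.POmega F ⇑Q) := by
    rw [Subgroup.mem_center_iff]
    intro g
    have h3 := congrArg (fun β : MulAut (Cfsg.POmega F ⇑Q) => β g) hk
    have h4 : k * g * k⁻¹ = g := h3
    calc g * k = (k * g * k⁻¹) * k := by rw [h4]
      _ = k * g := by group
  rw [center_POmega Q hQ hn7] at h1
  exact h1

include hQ hn r in
/-- The centraliser of the rational group in `PΩ` is trivial. -/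
theorem cent_LL (hn7 : 7 ≤ Fintype.card ι) (h8 : NoSolid Q)
    (hcoord : ∀ (θ : F ≃+* F) (x : ι → F), Q (fun i => θ (x i)) = θ (Q x)) (k : Cfsg.POmega F ⇑Q)
    (hk : ∀ l ∈ LL hσ, k * l = l * k) : k = 1 := by
  classical
  have hα : ∀ l ∈ LL hσ, MulAut.conj k l = l := by
    intro l hl
    rw [MulAut.conj_apply, hk l hl, mul_inv_cancel_right]
  obtain ⟨θ, hθ, -⟩ := cent_of_fix hσ hQ hn r hn7 h8 hcoord (MulAut.conj k) hα
  obtain ⟨u, rfl⟩ := QuotientGroup.mk_surjective k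
  rw [← conjS_ofE hQ hn] at hθ
  set t := omegaEquiv Q hQ hn u with ht
  have h1 : conjS hQ hn ((ofE t)⁻¹ * coordS θ (hcoord θ)) = 1 := by
    rw [map_mul, map_inv, ← hθ, inv_mul_cancel]
  obtain ⟨c, hc0, hc'⟩ := (conjS_eq_one_iff hQ hn r).1 h1
  have h2 : ∀ x : ι → F, (fun i => θ (x i)) = c • t.1 x := by
    intro x
    have h3 := hc' x
    have h4 : (ofE t).1.symm ((coordS θ (hcoord θ)).1 x) = c • x := h3
    have h5 : (coordS θ (hcoord θ)).1 x = t.1 (c • x) := by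
      rw [← h4]
      exact ((ofE t).1.apply_symm_apply _).symm
    rw [coordS_apply] at h5
    rw [h5, map_smul]
  have hne : Nonempty ι := by
    apply Fintype.card_pos_iff.1
    omega
  obtain ⟨i⟩ := hne
  have hθ1 : θ = RingEquiv.refl F := by
    ext d
    have h3 := congrFun (h2 (d • fun _ => 1)) i
    have h4 := congrFun (h2 (fun _ => 1)) i
    rw [map_smul, smul_comm] at h3
    have h5 : θ ((d • fun _ : ι => (1 : F)) i) = d • (c • t.1 fun _ => 1) i := h3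
    rw [← h4] at h5
    simpa using h5
  subst hθ1
  have h3 : conjS hQ hn (coordS (RingEquiv.refl F) (hcoord _)) = 1 :=
    (conjS_eq_one_iff hQ hn r).2 ⟨1, one_ne_zero, fun x => by
      rw [one_smul]
      rfl⟩
  rw [h3, conjS_ofE hQ hn] at hθ
  exact conj_injective hQ hn7 (by rw [hθ, map_one])

include hQ hn r in
/-- No non-trivial `p'`-automorphism centralises the rational group. -/
theorem field_LL (hn7 : 7 ≤ Fintype.card ι) (h8 : NoSolid Q)
    (hcoord : ∀ (θ : F ≃+* F) (x : ι → F), Q (fun i => θ (x i)) = θ (Q x)) {f : ℕ} (hF : Fintype.card F = r ^ f)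
    (hf : 1 ≤ f) {p : ℕ} (hord : orderOf σ = p) (α : MulAut (Cfsg.POmega F ⇑Q)) (hα : ∀ l ∈ LL hσ, α l = l)
    (hcop : (orderOf α).Coprime p) : α = 1 := by
  obtain ⟨θ, rfl, hθ⟩ := cent_of_fix hσ hQ hn r hn7 h8 hcoord α hα
  rw [orderOf_conjS_coord hQ hn r θ (hcoord θ)] at hcop
  have h1 := Cfsg.Agent.Lib.LocalBal.SpCent.eq_one_of_fix hF hf σ θ hord hcop hθ
  subst h1
  exact (conjS_eq_one_iff hQ hn r).2 ⟨1, one_ne_zero, fun x => by
    rw [one_smul]
    rfl⟩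

/-- Squares of isometries lie in `Ω`. -/
theorem sq_mem_omega {K : Type u} [Field K] [Fintype K] (Q₁ : QuadraticForm K (ι → K)) (hQ₁ : (polarBilin Q₁).Nondegenerate)
    (h : Fintype.card K ≠ 2 ∨ Fintype.card ι ≠ 4) (g : Cfsg.isometryGroup K ⇑Q₁) : g ^ 2 ∈ Cfsg.Omega K ⇑Q₁ := by
  obtain ⟨vs, hvs, rfl⟩ := exists_word Q₁ hQ₁ h g
  have hrefl : ∀ v, (reflEl Q₁ v) ^ 2 = 1 := by
    intro v
    apply (toIso Q₁).injective
    apply Subtype.ext
    rw [map_pow, map_one, reflEl, MulEquiv.apply_symm_apply, _root_.sq]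
    exact refl_mul_self Q₁ v
  have key : ∀ l : List (ι → K), Abelianization.of ((l.map (reflEl Q₁)).prod ^ 2) = 1 := by
    intro l
    induction l with
    | nil => simp
    | cons v l ih =>
      rw [List.map_cons, List.prod_cons, map_pow, map_mul, mul_pow, ← map_pow, ← map_pow, hrefl, ih, map_one, one_mul]
  have h1 := key vs
  exact (QuotientGroup.eq_one_iff _).1 h1

include hQ in
/-- A fixed element of odd prime order lies in the rational group. -/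
theorem mem_LL_of_odd (hn7 : 7 ≤ Fintype.card ι) (hZ : Subgroup.center (Cfsg.Omega F ⇑Q) = ⊥) {p : ℕ} (hp2 : Odd p)
    (y : Cfsg.POmega F ⇑Q) (hy : XX hσ hQ hn y = y) (hord : y ^ p = 1) : y ∈ LL hσ := by
  have hQ₀ := descend_nondeg Q hσ hQ
  obtain ⟨u, rfl⟩ := QuotientGroup.mk_surjective y
  obtain ⟨u₀, hu₀⟩ := exists_lift_iso hσ u.1 (fixed_matrix hσ hQ hn hZ u hy)
  have h1 := sq_mem_omega (descend Q hσ) hQ₀ (Or.inr (by omega)) u₀
  have h2 : piO hσ ⟨u₀ ^ 2, h1⟩ = (QuotientGroup.mk u : Cfsg.POmega F ⇑Q) ^ 2 := by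
    rw [piO_apply]
    have h3 : jOm hσ ⟨u₀ ^ 2, h1⟩ = u ^ 2 := by
      apply Subtype.ext
      show jIso hσ (u₀ ^ 2) = (u ^ 2).1
      rw [map_pow, hu₀]
      rfl
    rw [h3]
    rfl
  obtain ⟨k, hk⟩ := hp2
  have h3 : (QuotientGroup.mk u : Cfsg.POmega F ⇑Q) = ((QuotientGroup.mk u : Cfsg.POmega F ⇑Q) ^ 2) ^ (k + 1) := by
    rw [← pow_mul]
    have e : 2 * (k + 1) = p + 1 := by omega
    rw [e, pow_succ, hord, one_mul]
  rw [h3, ← h2]
  exact (LL hσ).pow_mem ⟨_, rfl⟩ _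

end Cfsg.Agent.Lib.LocalBal.OmMain
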