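/-
The failure of local balance for `Ω_{2m+1}(q)`.
-/
import Mathlib
import Cfsg.Agent.Lib.LocalBal.OmMain

set_option autoImplicit false
set_option linter.unusedSectionVars false
set_option linter.unusedVariables false

namespace Cfsg.Agent.Lib.LocalBal.OmOdd

open Module QuadraticMap Matrix Cfsg.Agent.Lib.Witt.Quadratic Cfsg.Agent.Lib.Orth.Refl
open Cfsg.Agent.Lib.Orth.Gen Cfsg.Agent.Lib.OrthRefl.Eichler Cfsg.Agent.Lib.Classical.QuadEichler
open Cfsg.Agent.Lib.Classical.QuadEichSimple Cfsg.Agent.Lib.Classical.OmegaHP Cfsg.Agent.Lib.Classical.OmegaLocal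
open Cfsg.Agent.Lib.Classical.OmegaRoot Cfsg.Agent.Lib.Classical.OmegaSemi Cfsg.Agent.Lib.Classical.OmegaConj
open Cfsg.Agent.Lib.Classical.OmegaBar Cfsg.Agent.Lib.Classical.OmegaAut Cfsg.Agent.Lib.Classical.OmegaCount
open Cfsg.Agent.Lib.Orth.Forms Cfsg.Agent.Lib.Classical.BinaryForms Cfsg.Agent.Lib.Classical.QuadEichBridge
open Cfsg.Agent.Lib.Classical.OmegaForms Cfsg.Agent.Lib.Classical.OmegaOut Cfsg.Agent.Lib.Orth.Bridge
open Cfsg.Agent.Lib.Classical.MatrixBridge Cfsg.Agent.Lib.Orth.Closure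
open Cfsg.Agent.Lib.Classical.OmegaPGO Cfsg.Agent.Lib.Classical.OmegaPGO2 Cfsg.Agent.Lib.Classical.OmegaFrob
open Cfsg.Agent.Lib.Classical.OmegaOutOdd Cfsg.Agent.Lib.Classical.OmegaDesc Cfsg.Agent.Lib.Classical.OmegaFieldOdd
open Cfsg.Agent.Lib.LocalBal.OmEmb Cfsg.Agent.Lib.LocalBal.OmFix Cfsg.Agent.Lib.LocalBal.Core
open Cfsg.Agent.Lib.LocalBal.OmMain
open Cfsg.Agent.Lib.Classical.SympSimple (two_eq_zero_iff_even_card)
open scoped commutatorElement

universe u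

variable {F : Type u} [Field F] [Fintype F] {ι : Type} [Fintype ι] [DecidableEq ι]
variable {Q : QuadraticForm F (ι → F)}
variable (hQ : (polarBilin Q).Nondegenerate) (hn : 5 ≤ Fintype.card ι)
variable (r : ℕ) [hr : Fact r.Prime] [hc : CharP F r]

include hQ hn r in
/-- An automorphism of prime order outside the image of the conformal group is conjugate to a coordinate field
automorphism. -/
theorem exists_field_conj {m : ℕ} (hc1 : Fintype.card ι = 2 * m + 1) (hn7 : 7 ≤ Fintype.card ι) (h8 : NoSolid Q)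
    (hcoord : ∀ (θ : F ≃+* F) (x : ι → F), Q (fun i => θ (x i)) = θ (Q x)) {p : ℕ} [Fact p.Prime]
    (x : MulAut (Cfsg.POmega F ⇑Q)) (hord : orderOf x = p) (hnot : ¬ x ∈ Cfsg.pgoAut F ⇑Q) :
    ∃ (σ : F ≃+* F) (h : MulAut (Cfsg.POmega F ⇑Q)), σ ≠ RingEquiv.refl F ∧ orderOf σ = p ∧
      x = h * conjS hQ hn (coordS σ (hcoord σ)) * h⁻¹ := by
  have hNt : Nontrivial (ι → F) := Module.nontrivial_of_finrank_pos (R := F) (by rw [finrank_eq]; omega)
  have hpp : p.Prime := Fact.out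
  obtain ⟨T, rfl⟩ := conjS_surjective hQ hn r hn7 h8 x
  obtain ⟨θ, l, H⟩ := T.2
  have hθ : thetaHom Q T = θ := thetaHom_eq T H
  have hθc : ∀ θ' : F ≃+* F, thetaHom Q (coordS θ' (hcoord θ')) = θ' :=
    fun θ' => thetaHom_eq _ (semiOfCoord θ' (hcoord θ'))
  have hker : T * (coordS θ (hcoord θ))⁻¹ ∈ (thetaHom Q).ker := by
    rw [MonoidHom.mem_ker, map_mul, map_inv, hθ, hθc, mul_inv_cancel]
  obtain ⟨δ, hδ⟩ := exists_toSemi_of_ker hQ r hker
  have hT : T = toSemi Q δ * coordS θ (hcoord θ) := by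
    rw [hδ]
    group
  have hcs : conjS hQ hn T = conjHom ⇑Q δ * conjS hQ hn (coordS θ (hcoord θ)) := by
    rw [hT, map_mul, conjS_toSemi]
  have hθ1 : θ ≠ RingEquiv.refl F := by
    rintro rfl
    apply hnot
    have h1 : conjS hQ hn (coordS (RingEquiv.refl F) (hcoord _)) = 1 :=
      (conjS_eq_one_iff hQ hn r).2 ⟨1, one_ne_zero, fun x => by
        rw [one_smul]
        rfl⟩
    rw [hcs, h1, mul_one]
    exact mem_pgo_iff.2 ⟨δ, rfl⟩
  have hθp : θ ^ p = 1 := by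
    have h1 : conjS hQ hn (T ^ p) = 1 := by
      rw [map_pow, ← hord]
      exact pow_orderOf_eq_one _
    obtain ⟨c, hc0, hcT⟩ := (conjS_eq_one_iff hQ hn r).1 h1
    have h3 : T ^ p = scS' c hc0 := by
      apply Subtype.ext
      ext1 y
      exact hcT y
    have h4 : thetaHom Q (T ^ p) = 1 := by
      rw [h3]
      exact thetaHom_eq _ (scalar_semi c hc0)
    rw [map_pow, hθ] at h4
    exact h4
  have hordθ : orderOf θ = p := orderOf_eq_prime hθp hθ1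
  set X := conjS hQ hn (coordS θ (hcoord θ)) with hX
  have hX1 : Cfsg.IsFieldAutClassPOmega ⇑Q X :=
    ⟨1, X, θ, hθ1, isField_conjS_coord hQ hn θ (hcoord θ), by simp⟩
  have hXo : orderOf X = p := by
    rw [hX, orderOf_conjS_coord hQ hn r θ (hcoord θ), hordθ]
  have hδm : conjHom ⇑Q δ ∈ Cfsg.pgoAut F ⇑Q := mem_pgo_iff.2 ⟨δ, rfl⟩
  obtain ⟨h, -, hh⟩ := (main_conj_gen hQ hn r hc1 hn7 h8 hcoord X (conjHom ⇑Q δ) hX1 hXo hδm).1 (by rw [← hcs, hord])
  exact ⟨θ, h, hθ1, hordθ, by rw [hcs, hh]⟩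

theorem class_of_conj (hcoord : ∀ (θ : F ≃+* F) (x : ι → F), Q (fun i => θ (x i)) = θ (Q x))
    (x : MulAut (Cfsg.POmega F ⇑Q)) (σ : F ≃+* F) (h : MulAut (Cfsg.POmega F ⇑Q)) (hσ1 : σ ≠ RingEquiv.refl F)
    (hx : x = h * conjS hQ hn (coordS σ (hcoord σ)) * h⁻¹) : Cfsg.IsFieldAutClassPOmega ⇑Q x := by
  refine ⟨h⁻¹, conjS hQ hn (coordS σ (hcoord σ)), σ, hσ1, isField_conjS_coord hQ hn σ (hcoord σ), ?_⟩
  rw [hx]
  simp only [inv_inv, mul_assoc, inv_mul_cancel_left, inv_mul_cancel, mul_one]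

include hQ hn r in
/-- The generic form of the theorem. -/
theorem main_gen (hn7 : 7 ≤ Fintype.card ι) (h8 : NoSolid Q)
    (hcoord : ∀ (θ : F ≃+* F) (x : ι → F), Q (fun i => θ (x i)) = θ (Q x))
    (hZ : Subgroup.center (Cfsg.Omega F ⇑Q) = ⊥) (hne2 : Fintype.card F ≠ 2 ∨ Fintype.card ι ≠ 4)
    (h2L : ∀ σ : F ≃+* F, 2 ∣ Nat.card (LL (hcoord σ)))
    (A : Subgroup (MulAut (Cfsg.POmega F ⇑Q))) (hinn : ∀ k : Cfsg.POmega F ⇑Q, MulAut.conj k ∈ A)
    {p : ℕ} [Fact p.Prime] (x : MulAut (Cfsg.POmega F ⇑Q)) (σ : F ≃+* F) (h : MulAut (Cfsg.POmega F ⇑Q))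
    (hσo : orderOf σ = p) (hx : x = h * conjS hQ hn (coordS σ (hcoord σ)) * h⁻¹) :
    Cfsg.pPrimeCore p ↥(A ⊓ Subgroup.centralizer {x}) ≠ ⊥ ↔
      Nat.Coprime p (Nat.card ↥(MonoidHom.eqLocus x.toMonoidHom (MonoidHom.id (Cfsg.POmega F ⇑Q)))) := by
  classical
  have hpp : p.Prime := Fact.out
  set X := conjS hQ hn (coordS σ (hcoord σ)) with hX
  have hσ := hcoord σ
  have hcardeq := card_Fixed_conj h X x hx
  have hcj := conj_injective (Q := Q) hQ hn7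
  obtain ⟨f, hr', hF⟩ := FiniteField.card F r
  constructor
  · intro hcore
    by_contra hcop
    have hdiv : p ∣ Nat.card (Fixed X) := by
      rw [← hcardeq]
      exact (Nat.Prime.dvd_iff_not_coprime hpp).2 hcop
    have hdvdL : p ∣ Nat.card (LL hσ) := by
      by_cases hp2 : p = 2
      · subst hp2
        exact h2L σ
      · obtain ⟨y, hy⟩ := exists_prime_orderOf_dvd_card' p hdiv
        have h3 : y.1 ∈ LL hσ := mem_LL_of_odd hσ hQ hn hn7 hZ (hpp.odd_of_ne_two hp2) y.1 y.2 (by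
          have : orderOf y.1 = p := by rw [Subgroup.orderOf_coe, hy]
          rw [← this]
          exact pow_orderOf_eq_one _)
        have h4 : orderOf y.1 = p := by rw [Subgroup.orderOf_coe, hy]
        rw [← h4]
        exact Subgroup.orderOf_dvd_natCard _ h3
    exact hcore (core_eq_bot hcj X (LL hσ) (fix_LL hσ hQ hn) (norm_LL hσ hQ hn hZ)
      (dich_LL hσ hQ hn7 hdvdL) (cent_LL hσ hQ hn r hn7 h8 hcoord)
      (field_LL hσ hQ hn r hn7 h8 hcoord hF f.pos hσo) A hinn h x hx)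
  · intro hcop
    refine core_ne_bot hcj A hinn x ?_ hcop
    obtain ⟨t, ht⟩ := exists_piO_ne hσ hQ hn r hn7
    refine ⟨h (piO hσ t), ?_, ?_⟩
    · show x (h (piO hσ t)) = h (piO hσ t)
      rw [hx]
      show h (X (h⁻¹ (h (piO hσ t)))) = h (piO hσ t)
      rw [show h⁻¹ (h (piO hσ t)) = piO hσ t from MulEquiv.symm_apply_apply h _, fix_LL hσ hQ hn _ ⟨t, rfl⟩]
    · intro h1
      apply ht
      have h3 : h (piO hσ t) = h 1 := by rw [h1, map_one]
      exact h.injective h3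

section odd

variable (m : ℕ)

theorem two_dvd_LL (hodd : Odd (Fintype.card F)) (hm : 3 ≤ m) (σ : F ≃+* F) (r : ℕ) [Fact r.Prime] [CharP F r] :
    2 ∣ Nat.card (LL (coordStable_odd (F := F) m σ)) := by
  have h2 : (2 : F) ≠ 0 := Cfsg.Agent.Lib.Classical.OmegaPGO3.two_ne hodd
  have hQ := oddForm_nondeg (F := F) m h2
  have hc1 := card_odd m
  have hn7 : 7 ≤ Fintype.card (Unit ⊕ (Fin m ⊕ Fin m)) := by omega
  have hn : 5 ≤ Fintype.card (Unit ⊕ (Fin m ⊕ Fin m)) := by omega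
  have hσ := coordStable_odd (F := F) m σ
  have hQ₀ := descend_nondeg (oddForm m F) hσ hQ
  have h1 := card_range_of_simple (isSimpleGroup_POmega (descend (oddForm m F) hσ) hQ₀ hn7) (piO hσ)
    (piO_center hσ hQ hn7) (exists_piO_ne hσ hQ hn r hn7)
  rw [LL, h1]
  have e : ⇑(descend (oddForm m F) hσ) = Cfsg.quadFormOdd m (Fx σ) := by
    funext x
    apply Subtype.ext
    rw [descend_coe]
    show Cfsg.quadFormOdd m F (incl σ x) = ((Cfsg.quadFormOdd m (Fx σ) x : Fx σ) : F)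
    simp [Cfsg.quadFormOdd, incl]
  have hoddS : Odd (Fintype.card (Fx σ)) := by
    rw [← Nat.not_even_iff_odd, ← two_eq_zero_iff_even_card]
    intro h0
    apply h2
    rw [← map_ofNat (Fx σ).subtype 2, h0, map_zero]
  have h3 := card_POmega_odd (F := Fx σ) rfl hoddS m hm
  have h4 : Nat.card (Cfsg.POmega (Fx σ) ⇑(descend (oddForm m F) hσ)) = Nat.card (Cfsg.POmega (Fx σ) (Cfsg.quadFormOdd m (Fx σ))) := by
    rw [e]
  rw [h4]
  set q := Fintype.card (Fx σ) with hq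
  have h5 : (q ^ 2 - 1) * (q ^ 4 - 1) ∣ ∏ i ∈ Finset.range m, (q ^ (2 * (i + 1)) - 1) := by
    have h6 : ∏ i ∈ ({0, 1} : Finset ℕ), (q ^ (2 * (i + 1)) - 1) = (q ^ 2 - 1) * (q ^ 4 - 1) := by
      rw [Finset.prod_pair (by norm_num)]
    rw [← h6]
    apply Finset.prod_dvd_prod_of_subset
    intro i hi
    simp only [Finset.mem_insert, Finset.mem_singleton] at hi
    simp only [Finset.mem_range]
    omega
  have h7 : 2 ∣ q ^ 2 - 1 := (Nat.Odd.sub_odd (hoddS.pow) odd_one).two_dvd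
  have h8 : 2 ∣ q ^ 4 - 1 := (Nat.Odd.sub_odd (hoddS.pow) odd_one).two_dvd
  have h9 : 2 * 2 ∣ 2 * Nat.card (Cfsg.POmega (Fx σ) (Cfsg.quadFormOdd m (Fx σ))) := by
    rw [h3]
    exact Dvd.dvd.mul_left ((mul_dvd_mul h7 h8).trans h5) _
  exact Nat.dvd_of_mul_dvd_mul_left (by norm_num) h9

/-- The theorem. -/
theorem main (hodd : Odd (Fintype.card F)) (hm : 3 ≤ m) {r : ℕ} [Fact r.Prime] [CharP F r]
    (A : Subgroup (MulAut (Cfsg.POmega F (Cfsg.quadFormOdd m F))))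
    (hinn : ∀ k : Cfsg.POmega F (Cfsg.quadFormOdd m F), MulAut.conj k ∈ A) {p : ℕ} [Fact p.Prime] (hpr : p ≠ r)
    (x : MulAut (Cfsg.POmega F (Cfsg.quadFormOdd m F))) (hord : orderOf x = p)
    (hnot : ¬ Cfsg.IsInnerDiagonalAutPOmegaOdd m x) :
    Cfsg.pPrimeCore p ↥(A ⊓ Subgroup.centralizer {x}) ≠ ⊥ ↔
      (Cfsg.IsFieldAutClassPOmega (Cfsg.quadFormOdd m F) x ∧ Nat.Coprime p
        (Nat.card ↥(MonoidHom.eqLocus x.toMonoidHom (MonoidHom.id (Cfsg.POmega F (Cfsg.quadFormOdd m F)))))) := by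
  classical
  have hpp : p.Prime := Fact.out
  have h2 : (2 : F) ≠ 0 := Cfsg.Agent.Lib.Classical.OmegaPGO3.two_ne hodd
  have hQ := oddForm_nondeg (F := F) m h2
  have hc1 := card_odd m
  have hn7 : 7 ≤ Fintype.card (Unit ⊕ (Fin m ⊕ Fin m)) := by omega
  have hn : 5 ≤ Fintype.card (Unit ⊕ (Fin m ⊕ Fin m)) := by omega
  have h8 := noSolid_odd (F := F) m
  have hcoord := coordStable_odd (F := F) m
  have hnot' : ¬ x ∈ Cfsg.pgoAut F ⇑(oddForm m F) := by
    intro hx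
    obtain ⟨g, rfl⟩ := mem_pgo_iff.1 hx
    exact hnot ⟨g.1, g.2, (induced_iff g _).2 rfl⟩
  obtain ⟨σ, h, hσ1, hσo, hx⟩ := exists_field_conj (Q := oddForm m F) hQ hn r hc1 hn7 h8 hcoord x hord hnot'
  have hZ : Subgroup.center (Cfsg.Omega F ⇑(oddForm m F)) = ⊥ := by
    apply Subgroup.eq_bot_of_card_eq
    exact card_center_of_not_neg (oddForm m F) hQ hn
      (not_neg_of_odd_card _ h2 (by rw [hc1]; exact odd_two_mul_add_one m))
  have hclass : Cfsg.IsFieldAutClassPOmega (Cfsg.quadFormOdd m F) x := class_of_conj hQ hn hcoord x σ h hσ1 hx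
  have key := main_gen (Q := oddForm m F) hQ hn r hn7 h8 hcoord hZ (Or.inr (by rw [hc1]; omega))
    (fun σ' => two_dvd_LL m hodd hm σ' r) A hinn x σ h hσo hx
  exact ⟨fun h1 => ⟨hclass, key.1 h1⟩, fun h1 => key.2 h1.2⟩

end odd

end Cfsg.Agent.Lib.LocalBal.OmOdd
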