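/-
The `p'`-core of the centraliser of a field automorphism of `PSp_{2m}(F)`.
-/
import Mathlib
import Cfsg.Agent.Lib.LocalBal.SpCent

set_option autoImplicit false

namespace Cfsg.Agent.Lib.LocalBal.SpMain

open Matrix Cfsg
open Cfsg.Agent.Lib.Classical.SympForm Cfsg.Agent.Lib.Classical.SympSimple
open Cfsg.Agent.Lib.KS71.PSpCore Cfsg.Agent.Lib.KS71.PSpGroup Cfsg.Agent.Lib.KS71.PSpTInv
open Cfsg.Agent.Lib.KS71.PSpCard Cfsg.Agent.Lib.KS71.PSpClass
open Cfsg.Agent.Lib.KS71.PSpTwist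
open Cfsg.Agent.Lib.LocalBal.SpField Cfsg.Agent.Lib.LocalBal.SpCent

variable {F : Type*} [Field F] {m : ℕ}

theorem conj_apply_eq {G : Type*} [Group G] (α : MulAut G) (k : G) :
    MulAut.conj (α k) = α * MulAut.conj k * α⁻¹ := by
  ext y
  show α k * y * (α k)⁻¹ = α (k * (α⁻¹ y) * k⁻¹)
  rw [map_mul, map_mul, map_inv]
  congr 2
  exact (MulEquiv.apply_symm_apply α y).symm

theorem conj_injective (hm : 1 ≤ m) : Function.Injective (MulAut.conj : PSp m F →* MulAut (PSp m F)) := by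
  rw [injective_iff_map_eq_one]
  intro k hk
  obtain ⟨s, rfl⟩ := mkS_surj k
  rw [conj_mkS] at hk
  have h1 : cA (1 : ↥(GSp m F)) = cA (spToGS s) := by rw [hk, cA_one]
  obtain ⟨c, hc⟩ := cA_inj hm h1
  apply (QuotientGroup.eq_one_iff _).2
  rw [Subgroup.mem_center_iff]
  intro t
  apply Subtype.ext
  have hs : s.1 = (c : F) • 1 := by
    have h3 := congrArg (fun g : GL (Fin m ⊕ Fin m) F => (g : Matrix (Fin m ⊕ Fin m) (Fin m ⊕ Fin m) F)) hc
    beta_reduce at h3
    rw [Subgroup.coe_one, one_mul] at h3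
    show ((spToGS s).1 : Matrix (Fin m ⊕ Fin m) (Fin m ⊕ Fin m) F) = _
    rw [h3]
    exact coe_sc c
  show t.1 * s.1 = s.1 * t.1
  rw [hs, Matrix.mul_smul, Matrix.smul_mul, Matrix.mul_one, Matrix.one_mul]

/-- The core lemma: a subgroup of order prime to `p` of the centraliser of a field automorphism of order `p`
normalized by the inner automorphisms coming from the fixed points is trivial, if `p` divides the order of the fixed
points. -/
theorem core_lemma [Fintype F] {r f p : ℕ} [Fact r.Prime] [CharP F r] [Fact p.Prime] (hm : 2 ≤ m)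
    (hs : m = 2 → 3 ≤ Fintype.card F) (hF : Fintype.card F = r ^ f) (hf : 1 ≤ f) (σ : F ≃+* F) (hσ : orderOf σ = p)
    (hpr : p ≠ r) (hdiv : p ∣ Nat.card (C₀ m σ)) (N : Subgroup (MulAut (PSp m F)))
    (hcomm : ∀ α ∈ N, α * fA σ = fA σ * α)
    (hnorm : ∀ k ∈ C₀ m σ, ∀ α ∈ N, MulAut.conj k * α * (MulAut.conj k)⁻¹ ∈ N)
    (hcop : (Nat.card N).Coprime p) : N = ⊥ := by
  have hm1 : 1 ≤ m := by omega
  have hp : p.Prime := Fact.out
  have hcj := conj_injective (F := F) hm1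
  have h2 : p = 2 → (2 : F) ≠ 0 := by
    rintro rfl h20
    apply hpr
    have h3 : r ∣ 2 := (CharP.cast_eq_zero_iff F r 2).1 (by exact_mod_cast h20)
    exact ((Nat.prime_dvd_prime_iff_eq Fact.out Nat.prime_two).1 h3).symm
  have hL := dvd_L₀ hm h2 hσ hdiv
  let M₁ : Subgroup (PSp m F) := C₀ m σ ⊓ N.comap (MulAut.conj)
  let M₀ : Subgroup (PSp m F) := M₁ ⊓ L₀ m σ
  have hLC : L₀ m σ ≤ C₀ m σ := L₀_le_C₀ hm1
  have hM₀ : M₀ = ⊥ := by
    apply L₀_normal hm1 hpr hL M₀ inf_le_right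
    · rintro l hl y ⟨⟨hy1, hy2⟩, hy3⟩
      refine ⟨⟨?_, ?_⟩, ?_⟩
      · exact (C₀ m σ).mul_mem ((C₀ m σ).mul_mem (hLC hl) hy1) ((C₀ m σ).inv_mem (hLC hl))
      · show MulAut.conj (l * y * l⁻¹) ∈ N
        rw [map_mul, map_mul, map_inv]
        exact hnorm l (hLC hl) _ hy2
      · exact (L₀ m σ).mul_mem ((L₀ m σ).mul_mem hl hy3) ((L₀ m σ).inv_mem hl)
    · intro hdvd
      obtain ⟨y, hy⟩ := exists_prime_orderOf_dvd_card' p hdvd
      have h1 : orderOf (MulAut.conj y.1) = p := by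
        rw [orderOf_injective _ hcj, Subgroup.orderOf_coe, hy]
      have h3 := Subgroup.orderOf_dvd_natCard N y.2.1.2
      rw [h1] at h3
      have h4 := Nat.dvd_gcd h3 (dvd_refl p)
      rw [hcop] at h4
      exact hp.one_lt.ne' (Nat.dvd_one.1 h4)
  have hb : ∀ k ∈ M₁, ∀ l ∈ L₀ m σ, k * l = l * k := by
    intro k hk l hl
    have h1 : k * l * k⁻¹ * l⁻¹ ∈ M₀ := by
      refine ⟨⟨?_, ?_⟩, ?_⟩
      · exact (C₀ m σ).mul_mem ((C₀ m σ).mul_mem ((C₀ m σ).mul_mem hk.1 (hLC hl)) ((C₀ m σ).inv_mem hk.1))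
          ((C₀ m σ).inv_mem (hLC hl))
      · show MulAut.conj (k * l * k⁻¹ * l⁻¹) ∈ N
        have e : MulAut.conj (k * l * k⁻¹ * l⁻¹) =
            MulAut.conj k * (MulAut.conj l * (MulAut.conj k)⁻¹ * (MulAut.conj l)⁻¹) := by
          simp only [map_mul, map_inv, mul_assoc]
        rw [e]
        exact N.mul_mem hk.2 (hnorm l (hLC hl) _ (N.inv_mem hk.2))
      · exact (L₀ m σ).mul_mem (conj_mem_L₀ hm1 hk.1 hl) ((L₀ m σ).inv_mem hl)
    rw [hM₀] at h1
    have h3 : k * l * k⁻¹ * l⁻¹ = 1 := h1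
    calc k * l = (k * l * k⁻¹ * l⁻¹) * (l * k) := by group
      _ = l * k := by rw [h3, one_mul]
  have hc : M₁ = ⊥ := by
    rw [Subgroup.eq_bot_iff_forall]
    intro k hk
    have h1 : ∀ l ∈ L₀ m σ, MulAut.conj k l = l := by
      intro l hl
      rw [MulAut.conj_apply, hb k hk l hl, mul_inv_cancel_right]
    obtain ⟨τ, hτ, -⟩ := cent_of_fix hm hs σ (MulAut.conj k) h1
    obtain ⟨s, rfl⟩ := mkS_surj k
    have h3 : cA (spToGS s) * fA (1 : F ≃+* F) = cA (1 : ↥(GSp m F)) * fA τ := by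
      rw [← conj_mkS, hτ, fA_one, cA_one, mul_one, one_mul]
    have h4 := (semi_inj hm1 h3).1
    rw [← h4, fA_one] at hτ
    exact hcj (by rw [hτ, map_one])
  have hd : ∀ α ∈ N, ∀ k ∈ C₀ m σ, α k = k := by
    intro α hα k hk
    have h1 : α k ∈ C₀ m σ := by
      show fA σ (α k) = α k
      have h3 := congrArg (fun β : MulAut (PSp m F) => β k) (hcomm α hα)
      have h4 : α (fA σ k) = fA σ (α k) := h3
      rw [← h4, mem_C₀.1 hk]
    have h3 : α k * k⁻¹ ∈ M₁ := by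
      refine ⟨(C₀ m σ).mul_mem h1 ((C₀ m σ).inv_mem hk), ?_⟩
      show MulAut.conj (α k * k⁻¹) ∈ N
      have e : MulAut.conj (α k * k⁻¹) = α * (MulAut.conj k * α⁻¹ * (MulAut.conj k)⁻¹) := by
        rw [map_mul, conj_apply_eq, map_inv]
        simp only [mul_assoc]
      rw [e]
      exact N.mul_mem hα (hnorm k hk _ (N.inv_mem hα))
    rw [hc] at h3
    have h4 : α k * k⁻¹ = 1 := h3
    exact mul_inv_eq_one.1 h4
  rw [Subgroup.eq_bot_iff_forall]
  intro α hα
  obtain ⟨τ, hτ, hfix⟩ := cent_of_fix hm hs σ α (fun l hl => hd α hα l (hLC hl))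
  have h1 : orderOf τ = orderOf α := by rw [hτ, orderOf_field hm1]
  have hcop' : (orderOf τ).Coprime p := by
    rw [h1]
    exact Nat.Coprime.coprime_dvd_left (Subgroup.orderOf_dvd_natCard N hα) hcop
  have h3 := eq_one_of_fix hF hf σ τ hσ hcop' hfix
  rw [hτ, h3, fA_one]

variable {K : Type*} [Group K]

/-- The fixed points of an automorphism. -/
abbrev Fx (x : MulAut K) : Subgroup K := MonoidHom.eqLocus x.toMonoidHom (MonoidHom.id K)

/-- Inner automorphisms by fixed points lie in the centraliser. -/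
theorem conj_mem_cent {x : MulAut K} {k : K} (hk : k ∈ Fx x) : MulAut.conj k ∈ Subgroup.centralizer {x} := by
  rw [Subgroup.mem_centralizer_iff]
  rintro y rfl
  have h1 : y k = k := hk
  have h3 := conj_apply_eq y k
  rw [h1] at h3
  calc y * MulAut.conj k = (y * MulAut.conj k * y⁻¹) * y := by group
    _ = MulAut.conj k * y := by rw [← h3]

/-- The forward direction: the core vanishes. -/
theorem core_eq_bot [Fintype F] {r f p : ℕ} [Fact r.Prime] [CharP F r] [Fact p.Prime] (hm : 2 ≤ m)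
    (hs : m = 2 → 3 ≤ Fintype.card F) (hF : Fintype.card F = r ^ f) (hf : 1 ≤ f) (σ : F ≃+* F) (hσ : orderOf σ = p)
    (hpr : p ≠ r) (A : Subgroup (MulAut (PSp m F))) (hinn : ∀ k : PSp m F, MulAut.conj k ∈ A)
    (h x : MulAut (PSp m F)) (hx : x = h * fA σ * h⁻¹) (hdiv : p ∣ Nat.card (C₀ m σ)) :
    pPrimeCore p ↥(A ⊓ Subgroup.centralizer {x}) = ⊥ := by
  apply sSup_eq_bot.2
  rintro N ⟨hN, hcop⟩
  let ψ : ↥(A ⊓ Subgroup.centralizer {x}) →* MulAut (PSp m F) :=
    (MulAut.conj h⁻¹).toMonoidHom.comp (A ⊓ Subgroup.centralizer {x}).subtype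
  have hψ : Function.Injective ψ := (MulAut.conj h⁻¹).injective.comp Subtype.val_injective
  have hψa : ∀ a, ψ a = h⁻¹ * a.1 * h := by
    intro a
    show h⁻¹ * a.1 * h⁻¹⁻¹ = _
    rw [inv_inv]
  have key : N.map ψ = ⊥ := by
    apply core_lemma hm hs hF hf σ hσ hpr hdiv
    · rintro α ⟨a, ha, rfl⟩
      rw [hψa]
      have h1 : a.1 * x = x * a.1 := by
        have := Subgroup.mem_centralizer_iff.1 a.2.2 x rfl
        exact this.symm
      have h3 : fA σ = h⁻¹ * x * h := by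
        rw [hx]
        group
      rw [h3]
      calc h⁻¹ * a.1 * h * (h⁻¹ * x * h) = h⁻¹ * (a.1 * x) * h := by group
        _ = h⁻¹ * (x * a.1) * h := by rw [h1]
        _ = h⁻¹ * x * h * (h⁻¹ * a.1 * h) := by group
    · rintro k hk α ⟨a, ha, rfl⟩
      have h1 : h k ∈ Fx x := by
        show x (h k) = h k
        rw [hx]
        show h (fA σ (h⁻¹ (h k))) = h k
        rw [show h⁻¹ (h k) = k from MulEquiv.symm_apply_apply h k, mem_C₀.1 hk]
      let b : ↥(A ⊓ Subgroup.centralizer {x}) := ⟨MulAut.conj (h k), hinn _, conj_mem_cent h1⟩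
      refine ⟨b * a * b⁻¹, hN.conj_mem a ha b, ?_⟩
      rw [hψa, hψa]
      show h⁻¹ * (MulAut.conj (h k) * a.1 * (MulAut.conj (h k))⁻¹) * h = _
      rw [conj_apply_eq]
      group
    · have e : Nat.card (N.map ψ) = Nat.card N := Nat.card_congr (Subgroup.equivMapOfInjective N ψ hψ).symm.toEquiv
      rw [e]
      exact hcop
  rw [Subgroup.eq_bot_iff_forall]
  intro a ha
  have h1 : ψ a ∈ N.map ψ := ⟨a, ha, rfl⟩
  rw [key] at h1
  exact hψ (by rw [(Subgroup.mem_bot.1 h1), map_one])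

/-- The reverse direction: the fixed points give a normal `p'`-subgroup. -/
theorem core_ne_bot {p : ℕ} (hcj : Function.Injective (MulAut.conj : K →* MulAut K)) (A : Subgroup (MulAut K))
    (hinn : ∀ k : K, MulAut.conj k ∈ A) (x : MulAut K) (hne : ∃ k ∈ Fx x, k ≠ 1)
    (hcop : Nat.Coprime p (Nat.card (Fx x))) : pPrimeCore p ↥(A ⊓ Subgroup.centralizer {x}) ≠ ⊥ := by
  let φ : Fx x →* ↥(A ⊓ Subgroup.centralizer {x}) :=
    { toFun := fun k => ⟨MulAut.conj k.1, hinn _, conj_mem_cent k.2⟩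
      map_one' := Subtype.ext (map_one MulAut.conj)
      map_mul' := fun a b => Subtype.ext (map_mul MulAut.conj a.1 b.1) }
  have hφ : Function.Injective φ := by
    intro a b hab
    apply Subtype.ext
    apply hcj
    exact congrArg Subtype.val hab
  intro h0
  have hnorm : φ.range.Normal := by
    constructor
    rintro _ ⟨k, rfl⟩ β
    have hk : β.1 k.1 ∈ Fx x := by
      show x (β.1 k.1) = β.1 k.1
      have h1 := Subgroup.mem_centralizer_iff.1 β.2.2 x rfl
      have h3 := congrArg (fun γ : MulAut K => γ k.1) h1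
      have h4 : x (β.1 k.1) = β.1 (x k.1) := h3
      have h5 : x k.1 = k.1 := k.2
      rw [h4, h5]
    refine ⟨⟨β.1 k.1, hk⟩, ?_⟩
    apply Subtype.ext
    show MulAut.conj (β.1 k.1) = β.1 * MulAut.conj k.1 * β.1⁻¹
    exact conj_apply_eq _ _
  have hcard : Nat.card φ.range = Nat.card (Fx x) := Nat.card_congr (MonoidHom.ofInjective hφ).symm.toEquiv
  have hle : φ.range ≤ pPrimeCore p ↥(A ⊓ Subgroup.centralizer {x}) :=
    le_sSup ⟨hnorm, by rw [hcard]; exact hcop.symm⟩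
  rw [h0] at hle
  obtain ⟨k, hk, hk1⟩ := hne
  have h1 : φ ⟨k, hk⟩ = 1 := Subgroup.mem_bot.1 (hle ⟨_, rfl⟩)
  have h3 : (⟨k, hk⟩ : Fx x) = 1 := hφ (by rw [h1, map_one])
  exact hk1 (congrArg Subtype.val h3)

/-- The theorem. -/
theorem main {F : Type*} [Field F] [Fintype F] {r : ℕ} [Fact r.Prime] [CharP F r] {m : ℕ} (hm : 2 ≤ m)
    (hs : m = 2 → 3 ≤ Fintype.card F) (A : Subgroup (MulAut (PSp m F))) (hinn : ∀ k : PSp m F, MulAut.conj k ∈ A)
    {p : ℕ} [Fact p.Prime] (hpr : p ≠ r) (x : MulAut (PSp m F)) (hord : orderOf x = p)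
    (hnot : ¬ IsInnerDiagonalAutPSp x) :
    pPrimeCore p ↥(A ⊓ Subgroup.centralizer {x}) ≠ ⊥ ↔
      (IsFieldAutClassPSp x ∧ Nat.Coprime p (Nat.card ↥(MonoidHom.eqLocus x.toMonoidHom (MonoidHom.id (PSp m F))))) := by
  classical
  have hm1 : 1 ≤ m := by omega
  have hp : p.Prime := Fact.out
  obtain ⟨σ, h, hσ1, hσ, -, hx⟩ := exists_conj_field hm hs hpr x hord hnot
  have hclass : IsFieldAutClassPSp x := by
    refine ⟨h⁻¹, σ, hσ1, ?_⟩
    have e : h⁻¹ * x * h⁻¹⁻¹ = fA σ := by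
      rw [hx]
      group
    rw [e]
    exact isStd_fA σ
  -- the cardinalities
  have hcardeq : Nat.card (Fx x) = Nat.card (C₀ m σ) := by
    refine Nat.card_congr ⟨fun y => ⟨h⁻¹ y.1, ?_⟩, fun y => ⟨h y.1, ?_⟩, ?_, ?_⟩
    · have h1 : x y.1 = y.1 := y.2
      have h0 : (h * fA σ * h⁻¹ : MulAut (PSp m F)) y.1 = y.1 := by
        have e := congrArg (fun β : MulAut (PSp m F) => β y.1) hx
        beta_reduce at e
        rw [← e]
        exact h1
      have h3 : h (fA σ (h⁻¹ y.1)) = y.1 := h0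
      show fA σ (h⁻¹ y.1) = h⁻¹ y.1
      apply h.injective
      rw [h3]
      exact (MulEquiv.apply_symm_apply h _).symm
    · show x (h y.1) = h y.1
      rw [hx]
      show h (fA σ (h⁻¹ (h y.1))) = h y.1
      rw [show h⁻¹ (h y.1) = y.1 from MulEquiv.symm_apply_apply h _, mem_C₀.1 y.2]
    · intro y
      apply Subtype.ext
      exact MulEquiv.apply_symm_apply h _
    · intro y
      apply Subtype.ext
      exact MulEquiv.symm_apply_apply h _
  obtain ⟨f, hr', hF⟩ := FiniteField.card F r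
  have hf : 1 ≤ f := f.pos
  have hF' : Fintype.card F = r ^ (f : ℕ) := hF
  constructor
  · intro hcore
    refine ⟨hclass, ?_⟩
    by_contra hcop
    have hdiv : p ∣ Nat.card (C₀ m σ) := by
      rw [← hcardeq]
      exact (Nat.Prime.dvd_iff_not_coprime hp).2 hcop
    exact hcore (core_eq_bot hm hs hF' hf σ hσ hpr A hinn h x hx hdiv)
  · rintro ⟨-, hcop⟩
    refine core_ne_bot (conj_injective hm1) A hinn x ?_ hcop
    -- a nontrivial fixed point
    let i₀ : Fin m ⊕ Fin m := Sum.inl ⟨0, by omega⟩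
    have he0 : (Pi.single i₀ 1 : Fin m ⊕ Fin m → F) ≠ 0 := by
      intro hi
      have := congrFun hi i₀
      simp at this
    have hfix0 : vσ σ (Pi.single i₀ 1 : Fin m ⊕ Fin m → F) = Pi.single i₀ 1 := by
      funext j
      by_cases hj : j = i₀
      · subst hj
        simp [vσ]
      · simp [vσ, hj]
    let d₀ : D m F := D.mk (Pi.single i₀ 1) 1 he0 one_ne_zero
    have hmemd : el d₀ ∈ L₀ m σ := mkS_mem_L₀ (ts_mem_fixSp hfix0)
    refine ⟨h (el d₀), ?_, ?_⟩
    · show x (h (el d₀)) = h (el d₀)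
      rw [hx]
      show h (fA σ (h⁻¹ (h (el d₀)))) = h (el d₀)
      rw [show h⁻¹ (h (el d₀)) = el d₀ from MulEquiv.symm_apply_apply h _, mem_C₀.1 (L₀_le_C₀ hm1 hmemd)]
    · intro h1
      apply el_ne_one d₀
      have h3 : h (el d₀) = h 1 := by rw [h1, map_one]
      exact h.injective h3

end Cfsg.Agent.Lib.LocalBal.SpMain
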